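import Mathlib
import Cfsg.Agent.LieClassical.HermBasic
import Cfsg.Agent.H913.F4
import Cfsg.Agent.H913.SU6Tensor

/-!
# A Hermitian space of dimension six over the field with four elements with an adjoint-closed cubic field (helper913)

Abstract version: `K` is a field with 64 elements over `F` with 4 elements, `V` a `K`-space of dimension two with an
`F`-Hermitian form `f` such that `f (k u) v = f u (k* v)`. Then `f u v = Tr (h u v)` with a `K`-Hermitian form `h`.
-/

set_option autoImplicit false
set_option linter.unusedSectionVars false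

namespace Cfsg.Agent.H913.Cubic

open Module
open Cfsg.Agent.LieClassical.HermBasic

variable {F K V : Type*} [Field F] [Fintype F] [Field K] [Fintype K] [Algebra F K]
  [AddCommGroup V] [Module F V] [Module K V] [IsScalarTower F K V]

/-- the data -/
structure Dat (f : V → V → F) (st : K ≃+* K) : Prop where
  cardF : Fintype.card F = 2 ^ 2
  cardK : Fintype.card K = 8 ^ 2
  add_left : ∀ x y v, f (x + y) v = f x v + f y v
  smul_left : ∀ (c : F) x v, f (c • x) v = c * f x v
  herm : ∀ v w, f v w = (f w v) ^ 2
  nd : ∀ v, (∀ w, f v w = 0) → v = 0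
  adj : ∀ (k : K) u v, f (k • u) v = f u (st k • v)
  st_alg : ∀ c : F, st (algebraMap F K c) = algebraMap F K (c ^ 2)
  st_st : ∀ k, st (st k) = k

variable {f : V → V → F} {st : K ≃+* K}

namespace Dat

omit [AddCommGroup V] [Module F V] [Module K V] [IsScalarTower F K V] in
theorem two_eq_zero_K (hK : Fintype.card K = 8 ^ 2) : (2 : K) = 0 := by
  have h : ((Fintype.card K : ℕ) : K) = 0 := FiniteField.cast_card_eq_zero K
  rw [hK] at h
  have h4 : (2 : K) ^ 6 = 0 := by
    have : (((8 ^ 2 : ℕ)) : K) = (2 : K) ^ 6 := by norm_num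
    rw [← this, h]
  exact pow_eq_zero_iff (n := 6) (by norm_num) |>.1 h4

omit [Fintype F] in
/-- a ring automorphism of order at most two of the field with 64 elements which is not the identity is `x ↦ x ^ 8` -/
theorem eq_pow_eight (hK : Fintype.card K = 8 ^ 2) (st : K ≃+* K) (h1 : ∀ k, st (st k) = k)
    (h2 : ∃ k, st k ≠ k) (k : K) : st k = k ^ 8 := by
  classical
  have hchar : CharP K 2 := by
    have h := two_eq_zero_K hK
    exact CharTwo.of_one_ne_zero_of_two_eq_zero one_ne_zero h
  let _ : Algebra (ZMod 2) K := ZMod.algebra K 2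
  have : Fact (Nat.Prime 2) := ⟨Nat.prime_two⟩
  have hcomm : ∀ r : ZMod 2, st (algebraMap (ZMod 2) K r) = algebraMap (ZMod 2) K r := fun r =>
    RingHom.congr_fun (Subsingleton.elim ((st : K →+* K).comp (algebraMap (ZMod 2) K))
      (algebraMap (ZMod 2) K)) r
  let stA : K ≃ₐ[ZMod 2] K := AlgEquiv.ofRingEquiv (f := st) hcomm
  obtain ⟨n, hn⟩ := (FiniteField.bijective_frobeniusAlgEquivOfAlgebraic_pow (ZMod 2) K).2 stA
  have hfin : finrank (ZMod 2) K = 6 := by
    have := Module.card_eq_pow_finrank (K := ZMod 2) (V := K)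
    rw [hK, ZMod.card] at this
    have h3 : (2 : ℕ) ^ 6 = 2 ^ finrank (ZMod 2) K := by rw [← this]; norm_num
    exact (Nat.pow_right_injective le_rfl h3).symm
  have hst : ∀ x, st x = x ^ (2 ^ n.1) := by
    intro x
    have h3 : stA x = x ^ (2 ^ n.1) := by
      rw [← hn]
      simp only
      rw [AlgEquiv.coe_pow, FiniteField.coe_frobeniusAlgEquivOfAlgebraic_iterate, ZMod.card]
    exact h3
  have hn6 : n.1 < 6 := by have := n.2; omega
  -- a generator
  obtain ⟨g, hg⟩ := IsCyclic.exists_generator (α := Kˣ)
  have hord : orderOf g = 63 := by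
    rw [orderOf_eq_card_of_forall_mem_zpowers hg, Nat.card_eq_fintype_card, Fintype.card_units, hK]
    norm_num
  have h3 : g ^ (2 ^ n.1 * 2 ^ n.1) = g ^ 1 := by
    apply Units.ext
    have := h1 (g : K)
    rw [hst, hst, ← pow_mul] at this
    rw [Units.val_pow_eq_pow_val, this, pow_one]
  rw [pow_eq_pow_iff_modEq, hord] at h3
  have h4 : n.1 = 0 ∨ n.1 = 3 := by
    have : ∀ m < 6, 2 ^ m * 2 ^ m % 63 = 1 → m = 0 ∨ m = 3 := by decide
    exact this n.1 hn6 h3
  rcases h4 with h4 | h4
  · obtain ⟨x, hx⟩ := h2
    exact absurd (by rw [hst, h4, pow_zero, pow_one]) hx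
  · rw [hst, h4]
    norm_num

variable (D : Dat f st)
include D

theorem st_eq (k : K) : st k = k ^ 8 := by
  refine eq_pow_eight D.cardK st D.st_st ?_ k
  obtain ⟨c, hc⟩ := exists_not_fixed D.cardF
  refine ⟨algebraMap F K c, fun h => hc ?_⟩
  rw [D.st_alg] at h
  exact (algebraMap F K).injective h

theorem finrank_three : finrank F K = 3 := by
  have := Module.card_eq_pow_finrank (K := F) (V := K)
  rw [D.cardK, D.cardF] at this
  have h3 : (4 : ℕ) ^ 3 = 4 ^ finrank F K := by
    calc (4 : ℕ) ^ 3 = 8 ^ 2 := by norm_num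
      _ = (2 ^ 2) ^ finrank F K := this
      _ = _ := by norm_num
  exact (Nat.pow_right_injective (by norm_num) h3).symm

/-- trace formula -/
theorem trace_eq (k : K) : algebraMap F K (Algebra.trace F K k) = k + k ^ 4 + k ^ 16 := by
  rw [FiniteField.algebraMap_trace_eq_sum_pow, D.finrank_three, Finset.sum_range_succ,
    Finset.sum_range_succ, Finset.sum_range_succ, Finset.sum_range_zero, Nat.card_eq_fintype_card,
    D.cardF]
  norm_num

/-- norm formula -/
theorem norm_eq (k : K) : algebraMap F K (Algebra.norm F k) = k ^ 21 := by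
  rw [FiniteField.algebraMap_norm_eq_pow_sum, D.finrank_three, Finset.sum_range_succ,
    Finset.sum_range_succ, Finset.sum_range_succ, Finset.sum_range_zero, Nat.card_eq_fintype_card,
    D.cardF]
  norm_num

theorem trace_st (k : K) : Algebra.trace F K (st k) = (Algebra.trace F K k) ^ 2 := by
  apply (algebraMap F K).injective
  rw [← D.st_alg, D.trace_eq, D.trace_eq, map_add, map_add, map_pow, map_pow]

theorem add_right (v x y : V) : f v (x + y) = f v x + f v y := by
  rw [D.herm, D.add_left, add_pow_q D.cardF, ← D.herm, ← D.herm]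

theorem zero_left (v : V) : f 0 v = 0 := by
  have := D.smul_left 0 0 v
  simpa using this

theorem adj' (k : K) (u v : V) : f u (k • v) = f (st k • u) v := by
  rw [D.adj, D.st_st]

theorem exists_h (u v : V) : ∃ h : K, ∀ k : K, f (k • u) v = Algebra.trace F K (k * h) := by
  let φ : K →ₗ[F] F :=
    { toFun := fun k => f (k • u) v
      map_add' := fun a b => by rw [add_smul, D.add_left]
      map_smul' := fun c a => by rw [smul_assoc, D.smul_left]; rfl }
  have hnd := traceForm_nondegenerate F K
  refine ⟨((Algebra.traceForm F K).toDual hnd).symm φ, fun k => ?_⟩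
  have h1 := LinearMap.BilinForm.apply_toDual_symm_apply (B := Algebra.traceForm F K) (hB := hnd)
    (f := φ) k
  rw [mul_comm, ← Algebra.traceForm_apply, h1]
  rfl

omit D in
theorem eq_of_trace {a b : K} (h : ∀ k : K, Algebra.trace F K (k * a) = Algebra.trace F K (k * b)) :
    a = b := by
  have hnd := traceForm_nondegenerate F K
  have h1 := hnd.1 (a - b) (fun k => by
    rw [Algebra.traceForm_apply, mul_comm, mul_sub, map_sub, h, sub_self])
  exact sub_eq_zero.1 h1

/-- the `K`-valued form -/
noncomputable def h (u v : V) : K := Classical.choose (D.exists_h u v)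

theorem h_spec (u v : V) (k : K) : f (k • u) v = Algebra.trace F K (k * D.h u v) :=
  Classical.choose_spec (D.exists_h u v) k

theorem h_spec_one (u v : V) : f u v = Algebra.trace F K (D.h u v) := by
  have := D.h_spec u v 1
  rwa [one_smul, one_mul] at this

theorem h_add_left (x y v : V) : D.h (x + y) v = D.h x v + D.h y v := by
  refine eq_of_trace (F := F) fun k => ?_
  rw [← D.h_spec, smul_add, D.add_left, mul_add, map_add, ← D.h_spec, ← D.h_spec]

theorem h_smul_left (a : K) (x v : V) : D.h (a • x) v = a * D.h x v := by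
  refine eq_of_trace (F := F) fun k => ?_
  rw [← D.h_spec, smul_smul, D.h_spec, mul_assoc]

theorem h_herm (u v : V) : D.h u v = st (D.h v u) := by
  refine eq_of_trace (F := F) fun k => ?_
  have h1 : k * st (D.h v u) = st (st k * D.h v u) := by rw [map_mul, D.st_st]
  rw [h1, D.trace_st, ← D.h_spec, ← D.h_spec, ← D.herm, D.adj, ]

theorem h_add_right (v x y : V) : D.h v (x + y) = D.h v x + D.h v y := by
  rw [D.h_herm, D.h_add_left, map_add, ← D.h_herm, ← D.h_herm]

theorem h_smul_right (a : K) (x v : V) : D.h x (a • v) = st a * D.h x v := by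
  rw [D.h_herm, D.h_smul_left, map_mul, ← D.h_herm]

theorem h_nd (v : V) (h0 : ∀ w, D.h v w = 0) : v = 0 :=
  D.nd v fun w => by rw [D.h_spec_one, h0, map_zero]

/-- A semilinear isometry. -/
theorem h_semi {g : V → V} (hg : ∀ u v, f (g u) (g v) = f u v) {τ : K ≃ₐ[F] K}
    (hτ : ∀ (k : K) v, g (k • v) = τ k • g v) (u v : V) : D.h (g u) (g v) = τ (D.h u v) := by
  refine eq_of_trace (F := F) fun k => ?_
  have h1 : k * τ (D.h u v) = τ (τ.symm k * D.h u v) := by
    rw [map_mul, AlgEquiv.apply_symm_apply]
  rw [h1, Algebra.trace_eq_of_algEquiv, ← D.h_spec, ← D.h_spec, ← hg (τ.symm k • u), hτ,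
    AlgEquiv.apply_symm_apply]

/-- hyperbolic basis -/
theorem exists_hyp (h2 : finrank K V = 2) : ∃ e e' : V, D.h e e = 0 ∧ D.h e' e' = 0 ∧ D.h e e' = 1 ∧
    D.h e' e = 1 ∧ ∀ x : V, x = D.h x e' • e + D.h x e • e' := by
  classical
  have : Module.Finite K V := Module.finite_of_finrank_pos (by omega)
  let b : Basis (Fin 2) K V := Module.finBasisOfFinrankEq K V h2
  let E : V ≃ₗ[K] (Fin 2 → K) := b.equivFun
  have hU : Cfsg.Geo.IsUnitaryFormPow 8 (fun x y : Fin 2 → K => D.h (E.symm x) (E.symm y)) := by
    constructor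
    · intro x y v
      simp only [map_add, D.h_add_left]
    · intro c x v
      simp only [map_smul, D.h_smul_left]
    · intro v w
      change D.h (E.symm v) (E.symm w) = (D.h (E.symm w) (E.symm v)) ^ 8
      rw [D.h_herm, D.st_eq]
    · intro v hv
      have h3 : ∃ x, D.h (E.symm v) (E.symm x) ≠ 0 := by
        by_contra hcon
        push Not at hcon
        apply hv
        have h4 := D.h_nd (E.symm v) (fun w => by
          have := hcon (E w)
          rwa [E.symm_apply_apply] at this)
        rw [← E.apply_symm_apply v, h4, map_zero]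
      obtain ⟨x, hx⟩ := h3
      refine ⟨⟨x, fun h5 => hx ?_⟩, x, hx⟩
      have h6 : D.h (E.symm x) (E.symm v) = 0 := h5
      rw [D.h_herm, h6, map_zero]
  obtain ⟨u, hu, -⟩ := SU6Tensor.exists_onb_two (F := K) (q := 8) D.cardK hU
  set u0 := E.symm (u 0) with hu0
  set u1 := E.symm (u 1) with hu1
  have h00 : D.h u0 u0 = 1 := hu 0 0
  have h01 : D.h u0 u1 = 0 := hu 0 1
  have h10 : D.h u1 u0 = 0 := hu 1 0
  have h11 : D.h u1 u1 = 1 := hu 1 1
  obtain ⟨w, hw⟩ := F4.exists_w D.cardF
  have h2F := F4.two_eq_zero D.cardF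
  have h2K := two_eq_zero_K D.cardK
  set W : K := algebraMap F K w with hW
  have hWW : W ^ 2 + W + 1 = 0 := by
    rw [hW, ← map_pow, ← map_one (algebraMap F K), ← map_add, ← map_add, hw, map_zero]
  have hst : st W = W + 1 := by
    rw [hW, D.st_alg, map_pow, ← hW]
    linear_combination hWW - (W + 1) * h2K
  have hst1 : st (W + 1) = W := by
    rw [map_add, map_one, hst]
    linear_combination h2K
  set e := u0 + u1 with he
  set e' := W • u0 + (W + 1) • u1 with he'
  have hee : D.h e e = 0 := by
    rw [he, D.h_add_left, D.h_add_right, D.h_add_right, h00, h01, h10, h11]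
    linear_combination h2K
  have he'e' : D.h e' e' = 0 := by
    rw [he', D.h_add_left, D.h_add_right, D.h_add_right]
    simp only [D.h_smul_left, D.h_smul_right, h00, h01, h10, h11, hst, hst1]
    linear_combination 2 * hWW - h2K
  have hee' : D.h e e' = 1 := by
    rw [he, he', D.h_add_left, D.h_add_right, D.h_add_right]
    simp only [D.h_smul_right, h00, h01, h10, h11, hst, hst1]
    linear_combination W * h2K
  have he'e : D.h e' e = 1 := by rw [D.h_herm, hee', map_one]
  have hli : LinearIndependent K ![e, e'] := by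
    rw [LinearIndependent.pair_iff]
    intro s t hst'
    have h5 : D.h (s • e + t • e') e = t := by
      rw [D.h_add_left, D.h_smul_left, D.h_smul_left, hee, he'e]; ring
    have h6 : D.h (s • e + t • e') e' = s := by
      rw [D.h_add_left, D.h_smul_left, D.h_smul_left, hee', he'e']; ring
    have h7 : ∀ v : V, D.h 0 v = 0 := by
      intro v
      have := D.h_smul_left 0 0 v
      simpa using this
    rw [hst', h7] at h5 h6
    exact ⟨h6.symm, h5.symm⟩
  have htop : Submodule.span K (Set.range ![e, e']) = ⊤ :=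
    hli.span_eq_top_of_card_eq_finrank' (by rw [h2]; rfl)
  refine ⟨e, e', hee, he'e', hee', he'e, fun x => ?_⟩
  have hx : x ∈ Submodule.span K (Set.range ![e, e']) := by rw [htop]; trivial
  rw [Matrix.range_cons, Matrix.range_cons, Matrix.range_empty, Set.union_empty,
    Set.singleton_union, Submodule.mem_span_pair] at hx
  obtain ⟨a, c, rfl⟩ := hx
  have h5 : D.h (a • e + c • e') e = c := by
    rw [D.h_add_left, D.h_smul_left, D.h_smul_left, hee, he'e]; ring
  have h6 : D.h (a • e + c • e') e' = a := by
    rw [D.h_add_left, D.h_smul_left, D.h_smul_left, hee', he'e']; ring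
  rw [h5, h6]

end Dat

end Cfsg.Agent.H913.Cubic
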