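import Mathlib
import Cfsg.Agent.H913.Cubic1
import Cfsg.Agent.H913.SubfieldMem

/-!
# The cubic field case, `q = 2`: the invariant `F_2`-structure (helper913)

`V0 st e e'` is the span of `e, e'` over the field with eight elements. A semilinear isometry `g` maps it into
`z • V0` with `z * st z = 1`; `V0` has a basis over the field with two elements which is a basis of `V` over `F`.
-/

set_option autoImplicit false
set_option linter.unusedSectionVars false

namespace Cfsg.Agent.H913.Cubic

open Module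
open Cfsg.Agent.LieClassical.HermBasic Cfsg.Agent.H913.SubfieldMem

variable {F K V : Type*} [Field F] [Fintype F] [Field K] [Fintype K] [Algebra F K]
  [AddCommGroup V] [Module F V] [Module K V] [IsScalarTower F K V]
variable {f : V → V → F} {st : K ≃+* K}

/-- the span of `e, e'` over the fixed field of `st` -/
def V0 (st : K ≃+* K) (e e' : V) : Set V := {v | ∃ x y : K, st x = x ∧ st y = y ∧ v = x • e + y • e'}

namespace Dat

variable (D : Dat f st)
include D

/-- A semilinear isometry maps `V0` into `z • V0`. -/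
theorem exists_z {e e' : V} (hee : D.h e e = 0) (he'e' : D.h e' e' = 0) (hee' : D.h e e' = 1)
    (he'e : D.h e' e = 1) (hex : ∀ x : V, x = D.h x e' • e + D.h x e • e') {g : V → V}
    (hadd : ∀ u v, g (u + v) = g u + g v)
    (hg : ∀ u v, f (g u) (g v) = f u v) {τ : K ≃ₐ[F] K} (hτ : ∀ (k : K) v, g (k • v) = τ k • g v) :
    ∃ z : K, z * st z = 1 ∧ z ≠ 0 ∧ ∀ v ∈ V0 st e e', z⁻¹ • g v ∈ V0 st e e' := by
  have h2 := two_eq_zero_K D.cardK
  have hsemi := D.h_semi hg hτ
  obtain ⟨a, b, hab⟩ : ∃ a b : K, g e = a • e + b • e' := ⟨_, _, hex _⟩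
  obtain ⟨c, d, hcd⟩ : ∃ c d : K, g e' = c • e + d • e' := ⟨_, _, hex _⟩
  have r1 : a * st b + b * st a = 0 := by
    have := hsemi e e
    rw [hee, map_zero, hab, D.h_add_left, D.h_add_right, D.h_add_right] at this
    simp only [D.h_smul_left, D.h_smul_right, hee, he'e', hee', he'e] at this
    linear_combination this
  have r2 : c * st d + d * st c = 0 := by
    have := hsemi e' e'
    rw [he'e', map_zero, hcd, D.h_add_left, D.h_add_right, D.h_add_right] at this
    simp only [D.h_smul_left, D.h_smul_right, hee, he'e', hee', he'e] at this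
    linear_combination this
  have r3 : a * st d + b * st c = 1 := by
    have := hsemi e e'
    rw [hee', map_one, hab, hcd, D.h_add_left, D.h_add_right, D.h_add_right] at this
    simp only [D.h_smul_left, D.h_smul_right, hee, he'e', hee', he'e] at this
    linear_combination this
  have r4 : st a * d + st b * c = 1 := by
    have := congrArg st r3
    rw [map_add, map_mul, map_mul, D.st_st, D.st_st, map_one] at this
    exact this
  set δ := a * d + b * c with hδ
  have ea : δ * st a = a := by
    rw [hδ]; linear_combination a * r4 + c * r1 - (a * c * st b) * h2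
  have eb : δ * st b = b := by
    rw [hδ]; linear_combination b * r4 + d * r1 - (b * d * st a) * h2
  have ec : δ * st c = c := by
    rw [hδ]; linear_combination c * r3 + a * r2 - (a * c * st d) * h2
  have ed : δ * st d = d := by
    rw [hδ]; linear_combination d * r3 + b * r2 - (b * d * st c) * h2
  have hδ0 : δ ≠ 0 := by
    intro h0
    rw [h0, zero_mul] at ea eb
    rw [← ea, ← eb, zero_mul, zero_mul, add_zero] at r3
    exact zero_ne_one r3
  have hδδ : δ * st δ = 1 := by
    apply mul_left_cancel₀ hδ0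
    have h6 : δ * (δ * st δ) = (δ * st a) * (δ * st d) + (δ * st b) * (δ * st c) := by
      rw [hδ, map_add, map_mul, map_mul]; ring
    rw [h6, ea, eb, ec, ed, mul_one]
  -- the square root
  have hpow : ∀ k : K, k ^ 64 = k := by
    intro k
    have := FiniteField.pow_card k
    rwa [D.cardK] at this
  set z := δ ^ 32 with hz
  have hzz : z ^ 2 = δ := by rw [hz, ← pow_mul]; exact hpow δ
  have hz0 : z ≠ 0 := pow_ne_zero _ hδ0
  have hsq1 : ∀ x : K, x ^ 2 = 1 → x = 1 := by
    intro x hx
    have : (x - 1) ^ 2 = 0 := by linear_combination hx + (1 - x) * h2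
    exact sub_eq_zero.1 (pow_eq_zero_iff (two_ne_zero) |>.1 this)
  have hzst : z * st z = 1 := by
    apply hsq1
    rw [mul_pow, ← map_pow, hzz, hδδ]
  have hstz : st z = z⁻¹ := eq_inv_of_mul_eq_one_right hzst
  have key : ∀ x : K, δ * st x = x → st (z⁻¹ * x) = z⁻¹ * x := by
    intro x hx
    rw [map_mul, map_inv₀, hstz, inv_inv]
    have h5 : st x = δ⁻¹ * x := by
      rw [eq_inv_mul_iff_mul_eq₀ hδ0]; exact hx
    rw [h5, ← hzz]
    field_simp
  have hτ0 : ∀ x : K, st x = x → st (τ x) = τ x := by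
    intro x hx
    rw [D.st_eq] at hx ⊢
    rw [← map_pow, hx]
  refine ⟨z, hzst, hz0, ?_⟩
  rintro _ ⟨x, y, hx, hy, rfl⟩
  refine ⟨τ x * (z⁻¹ * a) + τ y * (z⁻¹ * c), τ x * (z⁻¹ * b) + τ y * (z⁻¹ * d), ?_, ?_, ?_⟩
  · rw [map_add, map_mul st (τ x), map_mul st (τ y), hτ0 x hx, hτ0 y hy, key a ea, key c ec]
  · rw [map_add, map_mul st (τ x), map_mul st (τ y), hτ0 x hx, hτ0 y hy, key b eb, key d ed]
  · rw [hadd, hτ, hτ, hab, hcd]
    module

/-- `V0` as a space over the field with two elements -/
def V0s (e e' : V) : Submodule (fixedSub D.cardF) V where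
  carrier := V0 st e e'
  add_mem' := by
    rintro _ _ ⟨x, y, hx, hy, rfl⟩ ⟨x', y', hx', hy', rfl⟩
    exact ⟨x + x', y + y', by rw [map_add, hx, hx'], by rw [map_add, hy, hy'], by module⟩
  zero_mem' := ⟨0, 0, map_zero _, map_zero _, by simp⟩
  smul_mem' := by
    rintro c _ ⟨x, y, hx, hy, rfl⟩
    have hc : st (algebraMap F K (c : F)) = algebraMap F K (c : F) := by
      rw [D.st_alg]
      congr 1
      exact c.2
    refine ⟨algebraMap F K (c : F) * x, algebraMap F K (c : F) * y, by rw [map_mul, hc, hx],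
      by rw [map_mul, hc, hy], ?_⟩
    change (c : F) • (x • e + y • e') = _
    rw [smul_add, mul_smul, mul_smul, algebraMap_smul, algebraMap_smul]

theorem mem_V0s (e e' : V) (v : V) : v ∈ D.V0s e e' ↔ v ∈ V0 st e e' := Iff.rfl

theorem h_zero (v : V) : D.h 0 v = 0 := by
  have := D.h_smul_left 0 0 v
  simpa using this

theorem coord {e e' : V} (hee : D.h e e = 0) (he'e' : D.h e' e' = 0) (hee' : D.h e e' = 1)
    (he'e : D.h e' e = 1) (x y : K) : D.h (x • e + y • e') e' = x ∧ D.h (x • e + y • e') e = y := by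
  constructor
  · rw [D.h_add_left, D.h_smul_left, D.h_smul_left, hee', he'e']; ring
  · rw [D.h_add_left, D.h_smul_left, D.h_smul_left, hee, he'e]; ring

theorem card_V0 {e e' : V} (hee : D.h e e = 0) (he'e' : D.h e' e' = 0) (hee' : D.h e e' = 1)
    (he'e : D.h e' e = 1) : Nat.card (D.V0s e e') = 64 := by
  have hco := D.coord hee he'e' hee' he'e
  have h8 : Nat.card {x : K // x ^ 8 = x} = 8 := card_fixed D.cardK
  have e0 : (D.V0s e e') ≃ {x : K // x ^ 8 = x} × {x : K // x ^ 8 = x} :=
    { toFun := fun v => (⟨D.h v e', by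
          obtain ⟨x, y, hx, hy, hv⟩ := v.2
          rw [hv, (hco x y).1, ← D.st_eq, hx]⟩, ⟨D.h v e, by
          obtain ⟨x, y, hx, hy, hv⟩ := v.2
          rw [hv, (hco x y).2, ← D.st_eq, hy]⟩)
      invFun := fun p => ⟨(p.1 : K) • e + (p.2 : K) • e', ⟨p.1, p.2, by rw [D.st_eq]; exact p.1.2,
        by rw [D.st_eq]; exact p.2.2, rfl⟩⟩
      left_inv := fun v => by
        apply Subtype.ext
        obtain ⟨x, y, hx, hy, hv⟩ := v.2
        simp only
        rw [hv, (hco x y).1, (hco x y).2]
      right_inv := fun p => by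
        apply Prod.ext
        · apply Subtype.ext
          exact (hco _ _).1
        · apply Subtype.ext
          exact (hco _ _).2 }
  rw [Nat.card_congr e0, Nat.card_prod, h8]

/-- an `F_2`-basis of `V0` which is linearly independent over `F` -/
theorem exists_basis {e e' : V} (hee : D.h e e = 0) (he'e' : D.h e' e' = 0) (hee' : D.h e e' = 1)
    (he'e : D.h e' e = 1) : ∃ b : Basis (Fin 6) (fixedSub D.cardF) (D.V0s e e'),
      LinearIndependent F (fun j => (b j : V)) := by
  have hco := D.coord hee he'e' hee' he'e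
  have h2F := F4.two_eq_zero D.cardF
  have hcard : Nat.card (fixedSub D.cardF) = 2 := card_fixedSub D.cardF
  have hfin : Finite (D.V0s e e') := Nat.finite_of_card_ne_zero (by
    rw [D.card_V0 hee he'e' hee' he'e]; norm_num)
  have hrank : finrank (fixedSub D.cardF) (D.V0s e e') = 6 := by
    have h1 := Module.natCard_eq_pow_finrank (K := fixedSub D.cardF) (V := D.V0s e e')
    rw [D.card_V0 hee he'e' hee' he'e, hcard] at h1
    have h3 : (2 : ℕ) ^ 6 = 2 ^ finrank (fixedSub D.cardF) (D.V0s e e') := by rw [← h1]; norm_num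
    exact (Nat.pow_right_injective le_rfl h3).symm
  have : Module.Finite (fixedSub D.cardF) (D.V0s e e') := Module.finite_of_finrank_pos (by omega)
  let b : Basis (Fin 6) (fixedSub D.cardF) (D.V0s e e') := Module.finBasisOfFinrankEq _ _ hrank
  refine ⟨b, ?_⟩
  obtain ⟨w, hw⟩ := F4.exists_w D.cardF
  -- decomposition of the scalars
  have hsq : ∀ x : F, x ^ 4 = x := by
    intro x
    have := FiniteField.pow_card x
    rwa [D.cardF] at this
  have hdec : ∀ c : F, ∃ x y : fixedSub D.cardF, c = (x : F) + w * (y : F) := by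
    intro c
    have hy : (c + c ^ 2) ^ 2 = c + c ^ 2 := by
      linear_combination hsq c + c ^ 3 * h2F
    have hx : (c + w * (c + c ^ 2)) ^ 2 = c + w * (c + c ^ 2) := by
      linear_combination (w * c * (c + c ^ 2)) * h2F + (c + c ^ 2) ^ 2 * hw -
        (w + 1) * hy + (-c - c * w - c ^ 2 * w) * h2F
    refine ⟨⟨c + w * (c + c ^ 2), hx⟩, ⟨c + c ^ 2, hy⟩, ?_⟩
    simp only
    linear_combination (-w * (c + c ^ 2)) * h2F
  rw [Fintype.linearIndependent_iff]
  intro c hc
  choose x y hxy using fun j => hdec (c j)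
  -- the two parts
  set X : D.V0s e e' := ∑ j, x j • b j with hX
  set Y : D.V0s e e' := ∑ j, y j • b j with hY
  have hXY : (X : V) + w • (Y : V) = 0 := by
    rw [← hc, hX, hY]
    simp only [Submodule.coe_sum, Submodule.coe_smul, Finset.smul_sum, ← Finset.sum_add_distrib]
    refine Finset.sum_congr rfl fun j _ => ?_
    rw [hxy j]
    change (x j : F) • (b j : V) + w • ((y j : F) • (b j : V)) = _
    module
  obtain ⟨x1, x2, hx1, hx2, hXe⟩ := X.2
  obtain ⟨y1, y2, hy1, hy2, hYe⟩ := Y.2
  set W : K := algebraMap F K w with hW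
  have h2K := two_eq_zero_K D.cardK
  have hWW : W ^ 2 + W + 1 = 0 := by
    rw [hW, ← map_pow, ← map_one (algebraMap F K), ← map_add, ← map_add, hw, map_zero]
  have hst : st W = W + 1 := by
    rw [hW, D.st_alg, map_pow, ← hW]
    linear_combination hWW - (W + 1) * h2K
  have hzero : ∀ p r : K, st p = p → st r = r → p + W * r = 0 → p = 0 ∧ r = 0 := by
    intro p r hp hr h0
    have h1 := congrArg st h0
    rw [map_add, map_mul, hp, hr, hst, map_zero] at h1
    have h3 : r = 0 := by linear_combination h1 - h0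
    refine ⟨?_, h3⟩
    rw [h3, mul_zero, add_zero] at h0
    exact h0
  have hsplit : (x1 + W * y1) • e + (x2 + W * y2) • e' = 0 := by
    rw [← hXY, hXe, hYe, smul_add, ← algebraMap_smul K w, ← algebraMap_smul K w]
    module
  have hc1 := (hco (x1 + W * y1) (x2 + W * y2)).1
  have hc2 := (hco (x1 + W * y1) (x2 + W * y2)).2
  rw [hsplit, D.h_zero] at hc1 hc2
  obtain ⟨e1, e2⟩ := hzero _ _ hx1 hy1 hc1.symm
  obtain ⟨e3, e4⟩ := hzero _ _ hx2 hy2 hc2.symm
  have hX0 : X = 0 := Subtype.ext (by rw [hXe, e1, e3]; simp)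
  have hY0 : Y = 0 := Subtype.ext (by rw [hYe, e2, e4]; simp)
  have hxj := Fintype.linearIndependent_iff.1 b.linearIndependent x (by rw [← hX]; exact hX0)
  have hyj := Fintype.linearIndependent_iff.1 b.linearIndependent y (by rw [← hY]; exact hY0)
  intro j
  rw [hxy j, hxj j, hyj j]
  simp

theorem form_eq {e e' : V} (hee : D.h e e = 0) (he'e' : D.h e' e' = 0) (hee' : D.h e e' = 1)
    (he'e : D.h e' e = 1) (x y x' y' : K) (hx' : st x' = x') (hy' : st y' = y') :
    f (x • e + y • e') (x' • e + y' • e') = Algebra.trace F K (x * y' + y * x') := by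
  rw [D.h_spec_one, D.h_add_left, D.h_add_right, D.h_add_right]
  simp only [D.h_smul_left, D.h_smul_right, hee, he'e', hee', he'e, hx', hy']
  congr 1
  ring

theorem form_V0 {e e' : V} (hee : D.h e e = 0) (he'e' : D.h e' e' = 0) (hee' : D.h e e' = 1)
    (he'e : D.h e' e = 1) {u v : V} (hu : u ∈ V0 st e e') (hv : v ∈ V0 st e e') :
    (f u v) ^ 2 = f u v := by
  obtain ⟨x, y, hx, hy, rfl⟩ := hu
  obtain ⟨x', y', hx', hy', rfl⟩ := hv
  rw [D.form_eq hee he'e' hee' he'e x y x' y' hx' hy', ← D.trace_st, map_add, map_mul, map_mul, hx,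
    hy, hx', hy']

theorem form_V0_self {e e' : V} (hee : D.h e e = 0) (he'e' : D.h e' e' = 0) (hee' : D.h e e' = 1)
    (he'e : D.h e' e = 1) {u : V} (hu : u ∈ V0 st e e') : f u u = 0 := by
  obtain ⟨x, y, hx, hy, rfl⟩ := hu
  rw [D.form_eq hee he'e' hee' he'e x y x y hx hy]
  have h2 : x * y + y * x = 0 := by
    have := two_eq_zero_K D.cardK
    linear_combination (x * y) * this
  rw [h2, map_zero]

theorem exists_scalar {z : K} (hz1 : z * st z = 1) (hN : Algebra.norm F (z ^ 2) = 1) :
    ∃ c : F, z = algebraMap F K c := by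
  have hz42 : z ^ 42 = 1 := by
    have h3 := congrArg (algebraMap F K) hN
    rw [D.norm_eq, map_one, ← pow_mul] at h3
    exact h3
  have hz9 : z ^ 9 = 1 := by
    rw [D.st_eq] at hz1
    rw [← hz1]; ring
  have hz3 : z ^ 3 = 1 := by
    have h6 : z ^ 6 = 1 := by
      have : z ^ 42 = (z ^ 9) ^ 4 * z ^ 6 := by ring
      rw [this, hz9, one_pow, one_mul] at hz42
      exact hz42
    have : z ^ 9 = z ^ 6 * z ^ 3 := by ring
    rw [this, h6, one_mul] at hz9
    exact hz9
  obtain ⟨w, hw⟩ := F4.exists_w D.cardF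
  have h2K := two_eq_zero_K D.cardK
  set W : K := algebraMap F K w with hW
  have hWW : W ^ 2 + W + 1 = 0 := by
    rw [hW, ← map_pow, ← map_one (algebraMap F K), ← map_add, ← map_add, hw, map_zero]
  have h1 : (z - 1) * ((z - W) * (z - (W + 1))) = 0 := by
    linear_combination hz3 + (z - 1) * hWW + (-z ^ 2 * W + z * W - z ^ 2 + 1) * h2K
  rcases mul_eq_zero.1 h1 with h2 | h2
  · exact ⟨1, by rw [map_one]; exact sub_eq_zero.1 h2⟩
  rcases mul_eq_zero.1 h2 with h3 | h3
  · exact ⟨w, sub_eq_zero.1 h3⟩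
  · exact ⟨w + 1, by rw [map_add, map_one]; exact sub_eq_zero.1 h3⟩

omit D in
theorem norm_of_det {z : K} (hrank : finrank K V = 2) (L : V →ₗ[F] V) (hL : ∀ v, L v = z • v)
    (hdet : LinearMap.det L = 1) : Algebra.norm F (z ^ 2) = 1 := by
  have h1 : L = (z • (LinearMap.id : V →ₗ[K] V)).restrictScalars F := by
    apply LinearMap.ext
    intro v
    rw [hL]
    rfl
  rw [h1, LinearMap.det_restrictScalars, LinearMap.det_smul, LinearMap.det_id, mul_one, hrank] at hdet
  exact hdet

end Dat

end Cfsg.Agent.H913.Cubic
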