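import Mathlib
import Cfsg.Agent.LieClassical.HermBasic
import Cfsg.Agent.H879.Basic

/-!
# Overgroups of `GU_2(q^r)` in `SU_{2r}(q)`, part 1 (helper913)

`V` is a space of dimension two over the extension field `K` of `F`, `θ` a non-degenerate `K`-hermitian form, and `M` a group
of isometries of the `F`-form `Tr θ` containing the `(q+1)`-th powers of all `K`-linear isometries of `θ`.
-/

set_option autoImplicit false
set_option linter.unusedSectionVars false

namespace Cfsg.Agent.H913.UExt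

open Module
open Cfsg.Agent.LieClassical.HermBasic
open Cfsg.Agent.H879 (Has)

variable {F K V : Type*} [Field F] [Fintype F] [Field K] [Fintype K] [Algebra F K]
  [AddCommGroup V] [Module F V] [Module K V] [IsScalarTower F K V]

/-- `K`-linear isometries of `θ` -/
structure Lin (θ : V → V → K) (g : V ≃ₗ[F] V) : Prop where
  lin : ∀ (k : K) x, g (k • x) = k • g x
  iso : ∀ x y, θ (g x) (g y) = θ x y

/-- the data -/
structure Hyp (θ : V → V → K) (q Q : ℕ) (M : Subgroup (V ≃ₗ[F] V)) : Prop where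
  cardF : Fintype.card F = q ^ 2
  cardK : Fintype.card K = Q ^ 2
  algQ : ∀ c : F, (algebraMap F K c) ^ Q = algebraMap F K (c ^ q)
  add_left : ∀ x y z, θ (x + y) z = θ x z + θ y z
  smul_left : ∀ (k : K) x y, θ (k • x) y = k * θ x y
  herm : ∀ x y, θ x y = (θ y x) ^ Q
  ndeg : ∀ x, x ≠ 0 → ∃ y, θ x y ≠ 0
  trQ : ∀ k : K, Algebra.trace F K (k ^ Q) = (Algebra.trace F K k) ^ q
  pres : ∀ g ∈ M, ∀ x y, Algebra.trace F K (θ (g x) (g y)) = Algebra.trace F K (θ x y)
  pw : ∀ g : V ≃ₗ[F] V, Lin θ g → g ^ (q + 1) ∈ M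
  two : finrank K V = 2

theorem Lin.mul {θ : V → V → K} {g h : V ≃ₗ[F] V} (hg : Lin θ g) (hh : Lin θ h) : Lin θ (g * h) :=
  ⟨fun k x => by rw [LinearEquiv.mul_apply, LinearEquiv.mul_apply, hh.lin, hg.lin],
    fun x y => by rw [LinearEquiv.mul_apply, LinearEquiv.mul_apply, hg.iso, hh.iso]⟩

theorem Lin.one {θ : V → V → K} : Lin θ (1 : V ≃ₗ[F] V) :=
  ⟨fun _ _ => rfl, fun _ _ => rfl⟩

theorem Lin.pow {θ : V → V → K} {g : V ≃ₗ[F] V} (hg : Lin θ g) (n : ℕ) : Lin θ (g ^ n) := by
  induction n with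
  | zero => rw [pow_zero]; exact Lin.one
  | succ n ih => rw [pow_succ]; exact ih.mul hg

theorem tr_ne : Algebra.trace F K ≠ 0 := Algebra.trace_ne_zero F K

theorem eq_of_tr {a b : K} (h : ∀ k : K, Algebra.trace F K (k * a) = Algebra.trace F K (k * b)) :
    a = b := by
  have hnd := traceForm_nondegenerate F K
  have h1 := hnd.1 (a - b) (fun k => by
    rw [Algebra.traceForm_apply, mul_comm, mul_sub, map_sub, h, sub_self])
  exact sub_eq_zero.1 h1

namespace Hyp

variable {θ : V → V → K} {q Q : ℕ} {M : Subgroup (V ≃ₗ[F] V)} (h : Hyp θ q Q M)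
include h

theorem add_right (x y z : V) : θ x (y + z) = θ x y + θ x z := by
  rw [h.herm, h.add_left, add_pow_q h.cardK, ← h.herm, ← h.herm]

theorem smul_right (k : K) (x y : V) : θ x (k • y) = k ^ Q * θ x y := by
  rw [h.herm, h.smul_left, mul_pow, ← h.herm]

theorem zero_left (x : V) : θ 0 x = 0 := by
  have := h.smul_left 0 0 x
  simpa using this

theorem zero_right (x : V) : θ x 0 = 0 := by
  rw [h.herm, h.zero_left, zero_pow_q h.cardK]

theorem neg_left (x y : V) : θ (-x) y = - θ x y := by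
  rw [← neg_one_smul K, h.smul_left, neg_one_mul]

theorem neg_right (x y : V) : θ x (-y) = - θ x y := by
  rw [h.herm, h.neg_left, neg_pow_q h.cardK, ← h.herm]

theorem sub_left (x y z : V) : θ (x - y) z = θ x z - θ y z := by
  rw [sub_eq_add_neg, h.add_left, h.neg_left, sub_eq_add_neg]

theorem sub_right (x y z : V) : θ x (y - z) = θ x y - θ x z := by
  rw [sub_eq_add_neg, h.add_right, h.neg_right, sub_eq_add_neg]

theorem smulF_left (c : F) (x y : V) : θ (c • x) y = algebraMap F K c * θ x y := by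
  rw [← algebraMap_smul K c x, h.smul_left]

theorem self_fix (x : V) : θ x x ^ Q = θ x x := (h.herm x x).symm

theorem swap_zero {x y : V} (hxy : θ x y = 0) : θ y x = 0 := by
  rw [h.herm, hxy, zero_pow_q h.cardK]

theorem swap_ne {x y : V} (hxy : θ x y ≠ 0) : θ y x ≠ 0 := fun h0 => hxy (h.swap_zero h0)

theorem QQ (k : K) : (k ^ Q) ^ Q = k := pow_q_pow_q h.cardK k

theorem finK : Module.Finite K V := Module.finite_of_finrank_pos (by rw [h.two]; omega)

/-- `θ (·, y)` as a linear map -/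
def thL (y : V) : V →ₗ[K] K where
  toFun x := θ x y
  map_add' a b := h.add_left a b y
  map_smul' k a := by rw [h.smul_left, RingHom.id_apply, smul_eq_mul]

theorem thL_apply (x y : V) : h.thL y x = θ x y := rfl

/-- two vectors with non-zero product form a basis unless ... -/
theorem exists_sing_partner {x b : V} (hx : θ x x = 0) (hb : θ x b ≠ 0) :
    ∃ κ : K, θ (b + κ • x) (b + κ • x) = 0 ∧ θ x (b + κ • x) = θ x b := by
  obtain ⟨τ, hτ⟩ := exists_trace_eq h.cardK (c := - θ b b) (by rw [neg_pow_q h.cardK, h.self_fix])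
  refine ⟨τ / θ x b, ?_, ?_⟩
  · have h1 : θ x b ^ Q ≠ 0 := pow_ne_zero _ hb
    have h2 : θ b x = θ x b ^ Q := h.herm _ _
    rw [h.add_left, h.add_right, h.add_right, h.smul_left, h.smul_left, h.smul_right, h.smul_right, hx,
      h2, div_pow, div_mul_cancel₀ _ hb, div_mul_cancel₀ _ h1]
    linear_combination hτ
  · rw [h.add_right, h.smul_right, hx, mul_zero, add_zero]

theorem exists_nonzero : ∃ x : V, x ≠ 0 := by
  by_contra hcon
  push Not at hcon
  have : Subsingleton V := ⟨fun x y => by rw [hcon x, hcon y]⟩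
  have h1 := h.two
  rw [finrank_zero_of_subsingleton] at h1
  exact absurd h1 (by norm_num)

/-- the orthogonal complement of a vector is not zero -/
theorem exists_perp (y : V) : ∃ u : V, u ≠ 0 ∧ θ u y = 0 := by
  have := h.finK
  have h1 : LinearMap.ker (h.thL y) ≠ ⊥ := by
    apply LinearMap.ker_ne_bot_of_finrank_lt
    rw [h.two, finrank_self]
    omega
  obtain ⟨u, hu, hu0⟩ := (LinearMap.ker (h.thL y)).ne_bot_iff.1 h1
  exact ⟨u, hu0, hu⟩

/-- expansion in an orthogonal basis -/
theorem expand {y u : V} (hy : θ y y ≠ 0) (hu0 : u ≠ 0) (hu : θ u y = 0) (x : V) :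
    ∃ a b : K, x = a • y + b • u := by
  have := h.finK
  have hli : LinearIndependent K ![y, u] := by
    rw [LinearIndependent.pair_iff]
    intro s t hst
    have h1 : θ (s • y + t • u) y = s * θ y y := by
      rw [h.add_left, h.smul_left, h.smul_left, hu, mul_zero, add_zero]
    rw [hst, h.zero_left] at h1
    have hs : s = 0 := by
      rcases mul_eq_zero.1 h1.symm with h2 | h2
      · exact h2
      · exact absurd h2 hy
    refine ⟨hs, ?_⟩
    rw [hs, zero_smul, zero_add] at hst
    exact (smul_eq_zero.1 hst).resolve_right hu0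
  have htop : Submodule.span K (Set.range ![y, u]) = ⊤ :=
    hli.span_eq_top_of_card_eq_finrank' (by rw [h.two]; rfl)
  have hx : x ∈ Submodule.span K (Set.range ![y, u]) := by rw [htop]; trivial
  rw [Matrix.range_cons, Matrix.range_cons, Matrix.range_empty, Set.union_empty,
    Set.singleton_union, Submodule.mem_span_pair] at hx
  obtain ⟨a, c, hac⟩ := hx
  exact ⟨a, c, hac.symm⟩

/-- a vector orthogonal to a nonsingular vector is nonsingular -/
theorem nonsing_of_perp {y u : V} (hy : θ y y ≠ 0) (hu0 : u ≠ 0) (hu : θ u y = 0) : θ u u ≠ 0 := by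
  intro h0
  obtain ⟨w, hw⟩ := h.ndeg u hu0
  obtain ⟨a, b, rfl⟩ := h.expand hy hu0 hu w
  apply hw
  rw [h.add_right, h.smul_right, h.smul_right, hu, h0, mul_zero, mul_zero, add_zero]

/-- the expansion in a hyperbolic basis -/
theorem expand_hyp {x w : V} (hx : θ x x = 0) (hw : θ w w = 0) (hxw : θ x w ≠ 0) (z : V) :
    z = (θ z w / θ x w) • x + (θ z x / θ w x) • w := by
  have := h.finK
  have hwx := h.swap_ne hxw
  have hli : LinearIndependent K ![x, w] := by
    rw [LinearIndependent.pair_iff]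
    intro s t hst
    have h1 : θ (s • x + t • w) w = s * θ x w := by
      rw [h.add_left, h.smul_left, h.smul_left, hw, mul_zero, add_zero]
    have h2 : θ (s • x + t • w) x = t * θ w x := by
      rw [h.add_left, h.smul_left, h.smul_left, hx, mul_zero, zero_add]
    rw [hst, h.zero_left] at h1 h2
    exact ⟨(mul_eq_zero.1 h1.symm).resolve_right hxw, (mul_eq_zero.1 h2.symm).resolve_right hwx⟩
  have htop : Submodule.span K (Set.range ![x, w]) = ⊤ :=
    hli.span_eq_top_of_card_eq_finrank' (by rw [h.two]; rfl)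
  have hz : z ∈ Submodule.span K (Set.range ![x, w]) := by rw [htop]; trivial
  rw [Matrix.range_cons, Matrix.range_cons, Matrix.range_empty, Set.union_empty,
    Set.singleton_union, Submodule.mem_span_pair] at hz
  obtain ⟨a, c, rfl⟩ := hz
  rw [h.add_left, h.smul_left, h.smul_left, hw, mul_zero, add_zero, mul_div_cancel_right₀ _ hxw,
    h.add_left, h.smul_left, h.smul_left, hx, mul_zero, zero_add, mul_div_cancel_right₀ _ hwx]

/-- orthogonal to a singular vector: a multiple -/
theorem mem_of_perp_sing {x z : V} (hx0 : x ≠ 0) (hx : θ x x = 0) (hz : θ z x = 0) :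
    ∃ κ : K, z = κ • x := by
  obtain ⟨b, hb⟩ := h.ndeg x hx0
  obtain ⟨κ, h1, h2⟩ := h.exists_sing_partner hx hb
  refine ⟨θ z (b + κ • x) / θ x (b + κ • x), ?_⟩
  have h3 := h.expand_hyp hx h1 (by rw [h2]; exact hb) z
  rw [hz, zero_div, zero_smul, add_zero] at h3
  exact h3

/-- singular vectors separate: every non-zero vector is not orthogonal to some singular vector -/
theorem exists_sing {z : V} (hz : z ≠ 0) : ∃ a : V, θ a a = 0 ∧ θ z a ≠ 0 := by
  by_cases h0 : θ z z = 0
  · obtain ⟨b, hb⟩ := h.ndeg z hz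
    obtain ⟨κ, h1, h2⟩ := h.exists_sing_partner h0 hb
    exact ⟨_, h1, by rw [h2]; exact hb⟩
  · obtain ⟨u, hu0, hu⟩ := h.exists_perp z
    have hun := h.nonsing_of_perp h0 hu0 hu
    obtain ⟨α, hα0, hα⟩ := exists_norm_eq_ne h.cardK (c := - (θ u u / θ z z))
      (by rw [neg_pow_q h.cardK, div_pow, h.self_fix, h.self_fix])
      (neg_ne_zero.2 (div_ne_zero hun h0))
    refine ⟨α • z + u, ?_, ?_⟩
    · rw [h.add_left, h.add_right, h.add_right, h.smul_left, h.smul_left, h.smul_right, h.smul_right,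
        hu, h.swap_zero hu]
      have : θ u u / θ z z * θ z z = θ u u := div_mul_cancel₀ _ h0
      linear_combination (θ z z) * hα - this
    · rw [h.add_right, h.smul_right, h.swap_zero hu, add_zero]
      exact mul_ne_zero (pow_ne_zero _ hα0) h0

/-- a singular vector not orthogonal to two given singular vectors -/
theorem exists_common {x y : V} (hx0 : x ≠ 0) (hx : θ x x = 0) (hy0 : y ≠ 0) :
    ∃ z : V, θ z z = 0 ∧ θ x z ≠ 0 ∧ θ y z ≠ 0 := by
  obtain ⟨a, ha, hya⟩ := h.exists_sing hy0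
  by_cases hxa : θ x a = 0
  · -- `a` is a multiple of `x`
    obtain ⟨b, hb⟩ := h.ndeg x hx0
    obtain ⟨w, h1, hxw⟩ : ∃ w, θ w w = 0 ∧ θ x w ≠ 0 := by
      obtain ⟨κ, h1, h2⟩ := h.exists_sing_partner hx hb
      exact ⟨b + κ • x, h1, by rw [h2]; exact hb⟩
    by_cases hyw : θ y w = 0
    · -- take `w + c x` with `c θ(x, w)` skew
      obtain ⟨c, hc0, hc⟩ := exists_trace_zero_ne h.cardK
      refine ⟨w + (c / θ x w) • x, ?_, ?_, ?_⟩
      · have h3 : θ w x = θ x w ^ Q := h.herm _ _
        have h4 : θ x w ^ Q ≠ 0 := pow_ne_zero _ hxw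
        rw [h.add_left, h.add_right, h.add_right, h.smul_left, h.smul_left, h.smul_right, h.smul_right,
          hx, h1, h3, div_pow, div_mul_cancel₀ _ hxw, div_mul_cancel₀ _ h4]
        linear_combination hc
      · rw [h.add_right, h.smul_right, hx, mul_zero, add_zero]; exact hxw
      · rw [h.add_right, hyw, zero_add, h.smul_right]
        refine mul_ne_zero (pow_ne_zero _ (div_ne_zero hc0 hxw)) ?_
        intro h5
        obtain ⟨κ', hκ'⟩ := h.mem_of_perp_sing hx0 hx (h.swap_zero hxa)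
        apply hya
        rw [hκ', h.smul_right, h5, mul_zero]
    · exact ⟨w, h1, hxw, hyw⟩
  · exact ⟨a, ha, hxa, hya⟩

/-! ### Linear isometries -/

/-- A `K`-linear isometry from a map and its inverse. -/
theorem exists_lin (T T' : V →ₗ[K] V) (h1 : ∀ x, T (T' x) = x) (h2 : ∀ x, T' (T x) = x)
    (hiso : ∀ x y, θ (T x) (T y) = θ x y) : ∃ g : V ≃ₗ[F] V, Lin θ g ∧ ∀ x, g x = T x := by
  let E : V ≃ₗ[K] V := LinearEquiv.ofLinearMap T T' (LinearMap.ext h1) (LinearMap.ext h2)
  refine ⟨E.restrictScalars F, ⟨fun k x => ?_, fun x y => ?_⟩, fun x => rfl⟩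
  · exact E.map_smul k x
  · exact hiso x y

theorem pow_apply_lin {g : V ≃ₗ[F] V} (hg : Lin θ g) {x : V} {k : K} (hx : g x = k • x) (n : ℕ) :
    (g ^ n) x = k ^ n • x := by
  induction n with
  | zero => rw [pow_zero, pow_zero, one_smul]; rfl
  | succ n ih => rw [pow_succ', LinearEquiv.mul_apply, ih, hg.lin, hx, smul_smul, pow_succ]

/-- the transvection over `K` -/
theorem exists_kt {v : V} (hv : θ v v = 0) {l : K} (hl : l ^ Q = -l) :
    ∃ g ∈ M, Lin θ g ∧ ∀ x, g x = x + (l * θ x v) • v := by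
  let T : K → (V →ₗ[K] V) := fun l => LinearMap.id + (l • h.thL v).smulRight v
  have hT : ∀ l x, T l x = x + (l * θ x v) • v := by
    intro l x
    simp [T, thL_apply]
  have hadd : ∀ l l' x, T l (T l' x) = T (l + l') x := by
    intro l l' x
    rw [hT, hT, hT, h.add_left, h.smul_left, hv, mul_zero, add_zero, add_assoc, ← add_smul]
    congr 2
    ring
  have hz : ∀ x, T 0 x = x := by
    intro x; rw [hT, zero_mul, zero_smul, add_zero]
  obtain ⟨g, hg, hgx⟩ := h.exists_lin (T l) (T (-l)) (fun x => by rw [hadd, add_neg_cancel, hz])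
    (fun x => by rw [hadd, neg_add_cancel, hz]) (fun x y => by
      rw [hT, hT, h.add_left, h.add_right, h.add_right, h.smul_left, h.smul_left, h.smul_right,
        h.smul_right, hv, mul_pow, hl]
      have h1 : θ v y = θ y v ^ Q := h.herm _ _
      rw [h1]
      ring)
  have hpow : ∀ n : ℕ, ∀ x, (g ^ n) x = T (n * l) x := by
    intro n
    induction n with
    | zero => intro x; rw [pow_zero, Nat.cast_zero, zero_mul, hz]; rfl
    | succ n ih =>
      intro x
      rw [pow_succ', LinearEquiv.mul_apply, ih, hgx, hadd]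
      congr 2
      push_cast
      ring
  have hq0 : (q : K) = 0 := by
    obtain ⟨p, k, hp, hchar, hk, hk0⟩ := exists_prime_pow h.cardF
    have h1 : (p : F) = 0 := CharP.cast_eq_zero F p
    have h2 : (p : K) = 0 := by rw [← map_natCast (algebraMap F K), h1, map_zero]
    rw [hk, Nat.cast_pow, h2, zero_pow hk0.ne']
  refine ⟨g ^ (q + 1), h.pw g hg, hg.pow _, fun x => ?_⟩
  rw [hpow, hT]
  congr 3
  push_cast
  rw [hq0, zero_add, one_mul]

/-- moving a singular vector to another -/
theorem exists_move {x y : V} (hx : θ x x = 0) (hy : θ y y = 0) (hxy0 : θ x y ≠ 0)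
    (hxy : θ x y ^ Q = - θ x y) : ∃ g ∈ M, Lin θ g ∧ g x = y := by
  have hyx : θ y x = - θ x y := by rw [h.herm, hxy]
  obtain ⟨g, hg, hl, hgx⟩ := h.exists_kt (v := y - x) (l := (θ x y)⁻¹) (by
    rw [h.sub_left, h.sub_right, h.sub_right, hx, hy, hyx]; ring) (by
    rw [inv_pow, hxy, inv_neg])
  refine ⟨g, hg, hl, ?_⟩
  rw [hgx, h.sub_right, hx, sub_zero, inv_mul_cancel₀ hxy0, one_smul, add_sub_cancel]

/-- the torus -/
theorem exists_torus {x w : V} (hx : θ x x = 0) (hw : θ w w = 0) (hxw : θ x w ≠ 0) {k : K} (hk : k ≠ 0) :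
    ∃ g : V ≃ₗ[F] V, Lin θ g ∧ g x = k • x ∧ g w = (k ^ Q)⁻¹ • w := by
  have hwx := h.swap_ne hxw
  let T : K → (V →ₗ[K] V) := fun k => ((k / θ x w) • h.thL w).smulRight x +
    (((k ^ Q)⁻¹ / θ w x) • h.thL x).smulRight w
  have hT : ∀ k z, T k z = (k / θ x w * θ z w) • x + ((k ^ Q)⁻¹ / θ w x * θ z x) • w := by
    intro k z
    simp [T, thL_apply]
  have hTx : ∀ k, T k x = k • x := by
    intro k
    rw [hT, hx, mul_zero, zero_smul, add_zero, div_mul_cancel₀ _ hxw]
  have hTw : ∀ k, T k w = (k ^ Q)⁻¹ • w := by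
    intro k
    rw [hT, hw, mul_zero, zero_smul, zero_add, div_mul_cancel₀ _ hwx]
  have hinv : ∀ k : K, k ≠ 0 → ∀ z, T k (T k⁻¹ z) = z := by
    intro k hk z
    conv_rhs => rw [h.expand_hyp hx hw hxw z]
    rw [hT k⁻¹, map_add, map_smul, map_smul, hTx, hTw, smul_smul, smul_smul]
    have hkQ : k ^ Q ≠ 0 := pow_ne_zero _ hk
    congr 2
    · field_simp
    · rw [inv_pow, inv_inv]
      field_simp
  obtain ⟨g, hg, hgx⟩ := h.exists_lin (T k) (T k⁻¹) (hinv k hk) (fun z => by
      have := hinv k⁻¹ (inv_ne_zero hk) z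
      rwa [inv_inv] at this) (fun y z => by
      have hkQ : k ^ Q ≠ 0 := pow_ne_zero _ hk
      have e1 : ∀ a b c d : K, θ (a • x + b • w) (c • x + d • w) =
          a * d ^ Q * θ x w + b * c ^ Q * θ w x := by
        intro a b c d
        rw [h.add_left, h.add_right, h.add_right, h.smul_left, h.smul_left, h.smul_left, h.smul_left,
          h.smul_right, h.smul_right, h.smul_right, h.smul_right, hx, hw]
        ring
      conv_rhs => rw [h.expand_hyp hx hw hxw y, h.expand_hyp hx hw hxw z]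
      rw [hT, hT, e1, e1]
      have h3 : (k ^ Q)⁻¹ ^ Q = k⁻¹ := by rw [inv_pow, h.QQ]
      have h4 : ∀ a : K, ((k ^ Q)⁻¹ / θ w x * a) ^ Q = k⁻¹ * (a / θ w x) ^ Q := by
        intro a
        rw [div_mul_eq_mul_div, div_pow, mul_pow, h3, div_pow, mul_div_assoc]
      have h5 : ∀ a : K, (k / θ x w * a) ^ Q = k ^ Q * (a / θ x w) ^ Q := by
        intro a
        rw [div_mul_eq_mul_div, div_pow, mul_pow, div_pow, mul_div_assoc]
      rw [h4, h5]
      field_simp)
  exact ⟨g, hg, by rw [hgx, hTx], by rw [hgx, hTw]⟩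

/-- the reflection -/
theorem exists_refl {u : V} (hu : θ u u ≠ 0) {d : K} (hd : d * d ^ Q = 1) :
    ∃ g : V ≃ₗ[F] V, Lin θ g ∧ g u = d • u ∧ ∀ z, θ z u = 0 → g z = z := by
  let T : K → (V →ₗ[K] V) := fun d => LinearMap.id + (((d - 1) / θ u u) • h.thL u).smulRight u
  have hT : ∀ d x, T d x = x + ((d - 1) / θ u u * θ x u) • u := by
    intro d x
    simp [T, thL_apply]
  have hmul : ∀ d d' x, T d (T d' x) = T (d * d') x := by
    intro d d' x
    rw [hT, hT, hT, h.add_left, h.smul_left, add_assoc, ← add_smul]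
    congr 2
    field_simp
    ring
  have hone : ∀ x, T 1 x = x := by
    intro x; rw [hT, sub_self, zero_div, zero_mul, zero_smul, add_zero]
  have hd0 : d ≠ 0 := by rintro rfl; rw [zero_mul] at hd; exact zero_ne_one hd
  obtain ⟨g, hg, hgx⟩ := h.exists_lin (T d) (T d⁻¹) (fun x => by rw [hmul, mul_inv_cancel₀ hd0, hone])
    (fun x => by rw [hmul, inv_mul_cancel₀ hd0, hone]) (fun x y => by
      rw [hT, hT, h.add_left, h.add_right, h.add_right, h.smul_left, h.smul_left, h.smul_right,
        h.smul_right, mul_pow, div_pow, sub_pow_q h.cardK, one_pow, h.self_fix]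
      have h1 : θ u y = θ y u ^ Q := h.herm _ _
      rw [h1]
      field_simp
      linear_combination (θ x u * θ y u ^ Q) * hd)
  refine ⟨g, hg, ?_, fun z hz => ?_⟩
  · rw [hgx, hT, div_mul_cancel₀ _ hu, sub_smul, one_smul, add_sub_cancel]
  · rw [hgx, hT, hz, mul_zero, zero_smul, add_zero]

end Hyp

end Cfsg.Agent.H913.UExt
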