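import Cfsg.Agent.H913.UExt3

/-!
# Overgroups of `GU_2(q^r)` in `SU_{2r}(q)`, part 4: Siegel elements and elements of rank two (helper913)
-/

set_option autoImplicit false
set_option linter.unusedSectionVars false

namespace Cfsg.Agent.H913.UExt

open Module
open Cfsg.Agent.LieClassical.HermBasic
open Cfsg.Agent.H879 (Has apply_inv_apply inv_apply_apply)

variable {F K V : Type*} [Field F] [Fintype F] [Field K] [Fintype K] [Algebra F K]
  [AddCommGroup V] [Module F V] [Module K V] [IsScalarTower F K V]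

/-- `x ↦ x + L (θ x a) • a` is in `M` -/
def HasL (θ : V → V → K) (M : Subgroup (V ≃ₗ[F] V)) (a : V) (L : K → K) : Prop :=
  Has M (fun x => x + L (θ x a) • a)

namespace Hyp

variable {θ : V → V → K} {q Q : ℕ} {M : Subgroup (V ≃ₗ[F] V)} (h : Hyp θ q Q M)
include h

/-- the commutator -/
theorem has_R {g : V ≃ₗ[F] V} (hg : g ∈ M) {a v : V} (ha : θ a a = 0) (hv : θ v v = 0)
    (hth : ∀ k : K, θ (g (k • v)) a = algebraMap F K (Algebra.trace F K k)) {l m : K}
    (hl : l ^ Q = -l) (hm : m ^ Q = -m) (hl0 : Algebra.trace F K l = 0) :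
    Has M (Sg F θ (l • a) (g (m • v)) (Algebra.trace F K m)) := by
  -- `β (k a) = tr k`
  have hβ : ∀ k : K, θ (g⁻¹ (k • a)) v = algebraMap F K (Algebra.trace F K k) := by
    intro k
    apply h.trQ'
    intro k'
    rw [← h.smul_right]
    have h2 := h.pres g hg (g⁻¹ (k • a)) (k' • v)
    rw [apply_inv_apply] at h2
    rw [← h2, h.smul_left]
    have h3 : θ a (g (k' • v)) = algebraMap F K ((Algebra.trace F K k') ^ q) := by
      rw [h.herm, hth, h.algQ]
    rw [h3, mul_comm k, ← Algebra.smul_def, map_smul, ← h.trQ, mul_comm (k' ^ Q), ← Algebra.smul_def,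
      map_smul, smul_eq_mul, smul_eq_mul, mul_comm]
  have hfb : ∀ x, Algebra.trace F K (θ x (l • a)) = - Algebra.trace F K (l * θ x a) := by
    intro x
    rw [h.smul_right, hl, neg_mul, map_neg]
  have hfw : ∀ x, Algebra.trace F K (θ x (g (m • v))) = - Algebra.trace F K (m * θ (g⁻¹ x) v) := by
    intro x
    have h2 := h.pres g hg (g⁻¹ x) (m • v)
    rw [apply_inv_apply] at h2
    rw [h2, h.smul_right, hm, neg_mul, map_neg]
  have hgg : ∀ k : K, θ (g⁻¹ (g (k • v))) v = 0 := by
    intro k
    rw [inv_apply_apply, h.smul_left, hv, mul_zero]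
  have hlneg : (-l) ^ Q = -(-l) := by rw [neg_pow_q h.cardK, hl]
  have hmneg : (-m) ^ Q = -(-m) := by rw [neg_pow_q h.cardK, hm]
  obtain ⟨t1, ht1, -, e1⟩ := h.exists_kt ha hl
  obtain ⟨t1', ht1', -, e1'⟩ := h.exists_kt ha hlneg
  obtain ⟨t2, ht2, -, e2⟩ := h.exists_kt hv hm
  obtain ⟨t2', ht2', -, e2'⟩ := h.exists_kt hv hmneg
  refine ⟨t1 * ((g * t2 * g⁻¹) * (t1' * (g * t2' * g⁻¹))), M.mul_mem ht1 (M.mul_mem
    (M.mul_mem (M.mul_mem hg ht2) (M.inv_mem hg)) (M.mul_mem ht1' (M.mul_mem (M.mul_mem hg ht2')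
    (M.inv_mem hg)))), fun x => ?_⟩
  change t1 (g (t2 (g⁻¹ (t1' (g (t2' (g⁻¹ x))))))) = _
  have c1 : g (t2' (g⁻¹ x)) = x - g ((m * θ (g⁻¹ x) v) • v) := by
    rw [e2', map_add, apply_inv_apply, neg_mul, neg_smul, map_neg, sub_eq_add_neg]
  rw [c1]
  set β := θ (g⁻¹ x) v with hβd
  set α := θ x a with hαd
  have c2 : θ (x - g ((m * β) • v)) a = α - algebraMap F K (Algebra.trace F K (m * β)) := by
    rw [h.sub_left, hth]
  rw [e1', c2]
  set y := x - g ((m * β) • v) + (-l * (α - algebraMap F K (Algebra.trace F K (m * β)))) • a with hy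
  have c3 : θ (g⁻¹ y) v = β - algebraMap F K (Algebra.trace F K (l * α)) := by
    rw [hy, map_add, map_sub, h.add_left, h.sub_left, hgg, hβ, ← hβd, sub_zero]
    have : Algebra.trace F K (-l * (α - algebraMap F K (Algebra.trace F K (m * β)))) =
        - Algebra.trace F K (l * α) := by
      have e3 : -l * (α - algebraMap F K (Algebra.trace F K (m * β))) =
          - (l * α) + (Algebra.trace F K (m * β)) • l := by rw [Algebra.smul_def]; ring
      rw [e3, map_add, map_neg, map_smul, hl0, smul_zero, add_zero]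
    rw [this, map_neg, sub_eq_add_neg]
  have c4 : g (t2 (g⁻¹ y)) = y + g ((m * (β - algebraMap F K (Algebra.trace F K (l * α)))) • v) := by
    rw [e2, map_add, apply_inv_apply, c3]
  rw [c4, e1]
  have c5 : θ (y + g ((m * (β - algebraMap F K (Algebra.trace F K (l * α)))) • v)) a =
      α - algebraMap F K (Algebra.trace F K (l * α) * Algebra.trace F K m) := by
    rw [h.add_left, hth, hy, h.add_left, h.sub_left, hth, h.smul_left, ha, mul_zero, add_zero, ← hαd]
    have e3 : m * (β - algebraMap F K (Algebra.trace F K (l * α))) =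
        m * β - (Algebra.trace F K (l * α)) • m := by rw [Algebra.smul_def]; ring
    rw [e3, map_sub, map_smul, smul_eq_mul, map_sub]
    ring
  rw [c5, Sg, hfb, hfw, ← hβd, ← hαd, hy]
  have d1 : ∀ c : F, (l * algebraMap F K c) • a = c • (l • a) := by
    intro c
    rw [mul_comm, mul_smul, algebraMap_smul]
  have d2 : ∀ c : F, g ((m * algebraMap F K c) • v) = c • g (m • v) := by
    intro c
    rw [mul_comm, mul_smul, algebraMap_smul, map_smul]
  rw [mul_sub m, sub_smul, map_sub g, d2, mul_sub l, sub_smul, d1, neg_mul, mul_sub l, neg_sub, sub_smul, d1]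
  module

theorem f_smul_left (c : F) (x y : V) :
    Algebra.trace F K (θ (c • x) y) = c * Algebra.trace F K (θ x y) := by
  rw [h.smulF_left, ← Algebra.smul_def, map_smul, smul_eq_mul]

theorem f_add_left (x y z : V) : Algebra.trace F K (θ (x + y) z) =
    Algebra.trace F K (θ x z) + Algebra.trace F K (θ y z) := by rw [h.add_left, map_add]

theorem f_sub_left (x y z : V) : Algebra.trace F K (θ (x - y) z) =
    Algebra.trace F K (θ x z) - Algebra.trace F K (θ y z) := by rw [h.sub_left, map_sub]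

theorem f_add_right (x y z : V) : Algebra.trace F K (θ x (y + z)) =
    Algebra.trace F K (θ x y) + Algebra.trace F K (θ x z) := by rw [h.add_right, map_add]

theorem f_herm (x y : V) : Algebra.trace F K (θ x y) = (Algebra.trace F K (θ y x)) ^ q := by
  rw [h.herm, h.trQ]

theorem f_swap_zero {x y : V} (hxy : Algebra.trace F K (θ x y) = 0) :
    Algebra.trace F K (θ y x) = 0 := by rw [h.f_herm, hxy, zero_pow_q h.cardF]

/-- the rank two elements -/
theorem has_E {g : V ≃ₗ[F] V} (hg : g ∈ M) {a v : V} (ha : θ a a = 0) (hv : θ v v = 0)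
    (hth : ∀ k : K, θ (g (k • v)) a = algebraMap F K (Algebra.trace F K k)) {l l' m : K}
    (hl : l ^ Q = -l) (hl' : l' ^ Q = -l') (hm : m ^ Q = -m) (hl0 : Algebra.trace F K l = 0)
    (hl0' : Algebra.trace F K l' = 0) :
    Has M (fun x => x + (Algebra.trace F K m * Algebra.trace F K (θ x (l • a))) • (l' • a)
      + (Algebra.trace F K m * Algebra.trace F K (θ x (l' • a))) • (l • a)) := by
  have hneg : ∀ {k : K}, k ^ Q = -k → (-k) ^ Q = -(-k) := fun {k} hk => by
    rw [neg_pow_q h.cardK, hk]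
  have R1 := h.has_R hg ha hv hth (l := l + l') (m := m) (by
    rw [add_pow_q h.cardK, hl, hl']; ring) hm (by rw [map_add, hl0, hl0', add_zero])
  have R2 := h.has_R hg ha hv hth (l := l) (m := -m) hl (hneg hm) hl0
  have R3 := h.has_R hg ha hv hth (l := l') (m := -m) hl' (hneg hm) hl0'
  -- products
  set b := l • a with hb
  set b' := l' • a with hb'
  set w := g (m • v) with hw
  set μ := Algebra.trace F K m with hμ
  have ebb : (l + l') • a = b + b' := by rw [add_smul]
  have ew : g ((-m) • v) = -w := by rw [neg_smul, map_neg]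
  have hwb : Algebra.trace F K (θ w b) = 0 := by
    rw [hw, hb, h.smul_right, hl, hth, mul_comm, ← Algebra.smul_def, map_smul, map_neg, hl0, neg_zero,
      smul_zero]
  have hwb' : Algebra.trace F K (θ w b') = 0 := by
    rw [hw, hb', h.smul_right, hl', hth, mul_comm, ← Algebra.smul_def, map_smul, map_neg, hl0', neg_zero,
      smul_zero]
  have hbw := h.f_swap_zero hwb
  have hbw' := h.f_swap_zero hwb'
  have hbb : ∀ k k' : K, Algebra.trace F K (θ (k • a) (k' • a)) = 0 := by
    intro k k'
    rw [h.smul_left, h.smul_right, ha, mul_zero, mul_zero, map_zero]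
  have h11 : Algebra.trace F K (θ b b) = 0 := hbb _ _
  have h12 : Algebra.trace F K (θ b b') = 0 := hbb _ _
  have h21 : Algebra.trace F K (θ b' b) = 0 := hbb _ _
  have h22 : Algebra.trace F K (θ b' b') = 0 := hbb _ _
  have hww : Algebra.trace F K (θ w w) = 0 := by
    rw [hw, h.pres g hg, h.smul_left, h.smul_right, hv, mul_zero, mul_zero, map_zero]
  rw [ebb] at R1
  rw [ew, map_neg] at R2 R3
  have fneg : ∀ x y, Algebra.trace F K (θ x (-y)) = - Algebra.trace F K (θ x y) := by
    intro x y; rw [h.neg_right, map_neg]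
  refine (R1.comp (R2.comp R3)).congr fun x => ?_
  simp only [Sg, fneg, h.f_add_right, h.f_add_left, h.f_sub_left, h.f_smul_left, h11, h12, h21, h22, hww,
    hwb, hwb', hbw, hbw', mul_zero, mul_neg, neg_zero, add_zero, sub_zero, zero_add, neg_smul, smul_neg,
    neg_neg, h.neg_left, map_neg]
  module

end Hyp

end Cfsg.Agent.H913.UExt
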