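import Cfsg.Agent.H913.UExt4

/-!
# Overgroups of `GU_2(q^r)` in `SU_{2r}(q)`, part 5: transvections (helper913)
-/

set_option autoImplicit false
set_option linter.unusedSectionVars false

namespace Cfsg.Agent.H913.UExt

open Module
open Cfsg.Agent.LieClassical.HermBasic
open Cfsg.Agent.H879 (Has apply_inv_apply inv_apply_apply)

variable {F K V : Type*} [Field F] [Fintype F] [Field K] [Fintype K] [Algebra F K]
  [AddCommGroup V] [Module F V] [Module K V] [IsScalarTower F K V]

/-- all `F`-transvections with centre `y` -/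
def HasT (F : Type*) {K V : Type*} [Field F] [Field K] [Algebra F K] [AddCommGroup V] [Module F V]
    (θ : V → V → K) (q : ℕ) (M : Subgroup (V ≃ₗ[F] V)) (y : V) : Prop :=
  ∀ e : F, e ^ q = -e → Has M (fun x => x + (e * Algebra.trace F K (θ x y)) • y)

namespace Hyp

variable {θ : V → V → K} {q Q : ℕ} {M : Subgroup (V ≃ₗ[F] V)} (h : Hyp θ q Q M)
include h

theorem hasL_add {a : V} (ha : θ a a = 0) {L L' : K → K} (h1 : HasL θ M a L) (h2 : HasL θ M a L') :
    HasL θ M a (fun κ => L κ + L' κ) := by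
  refine (h1.comp h2).congr fun x => ?_
  have : θ (x + L' (θ x a) • a) a = θ x a := by
    rw [h.add_left, h.smul_left, ha, mul_zero, add_zero]
  rw [this, add_smul]
  abel

theorem hasL_zero {a : V} : HasL θ M a (fun _ => 0) :=
  (Cfsg.Agent.H879.has_id (M := M)).congr fun x => by rw [zero_smul, add_zero]

theorem hasL_neg {a : V} (ha : θ a a = 0) {L : K → K} (h1 : HasL θ M a L) :
    HasL θ M a (fun κ => - L κ) := by
  refine Has.inv h1 fun x => ?_
  have : θ (x + (- L (θ x a)) • a) a = θ x a := by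
    rw [h.add_left, h.smul_left, ha, mul_zero, add_zero]
  change x + (- L (θ x a)) • a + L (θ (x + (- L (θ x a)) • a) a) • a = x
  rw [this, neg_smul, neg_add_cancel_right]

/-- conjugation by a linear isometry -/
theorem hasL_conj {a : V} {L : K → K} (h1 : HasL θ M a L) {g : V ≃ₗ[F] V} (hg : g ∈ M) (hl : Lin θ g) :
    HasL θ M (g a) L := by
  refine (Has.conj h1 hg).congr fun x => ?_
  have : θ (g⁻¹ x) a = θ x (g a) := by
    have := hl.iso (g⁻¹ x) a
    rw [apply_inv_apply] at this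
    exact this.symm
  rw [this, map_add, apply_inv_apply, hl.lin]

theorem hasL_scale {a : V} {L : K → K} {k : K} (h1 : HasL θ M (k • a) L) :
    HasL θ M a (fun κ => k * L (k ^ Q * κ)) := by
  refine Has.congr h1 fun x => ?_
  rw [h.smul_right, smul_smul, mul_comm]

/-- the torus action -/
theorem hasL_torus {a : V} (ha : θ a a = 0) (ha0 : a ≠ 0) {L : K → K} (h1 : HasL θ M a L) {k : K}
    (hk : k ≠ 0) : HasL θ M a (fun κ => k ^ (q + 1) * L ((k ^ (q + 1)) ^ Q * κ)) := by
  obtain ⟨b, hb⟩ := h.ndeg a ha0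
  obtain ⟨κ, h2, h3⟩ := h.exists_sing_partner ha hb
  obtain ⟨g, hg, hga, -⟩ := h.exists_torus ha h2 (by rw [h3]; exact hb) hk
  have h4 := h.hasL_conj h1 (h.pw g hg) (hg.pow _)
  rw [h.pow_apply_lin hg hga] at h4
  exact h.hasL_scale h4

/-- the `K`-transvections -/
theorem hasL_kt {a : V} (ha : θ a a = 0) {l : K} (hl : l ^ Q = -l) : HasL θ M a (fun κ => l * κ) := by
  obtain ⟨g, hg, -, hgx⟩ := h.exists_kt ha hl
  exact ⟨g, hg, hgx⟩

theorem hasT_conj {a : V} (h1 : HasT F θ q M a) {g : V ≃ₗ[F] V} (hg : g ∈ M) :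
    HasT F θ q M (g a) := by
  intro e he
  refine ((h1 e he).conj hg).congr fun x => ?_
  have : Algebra.trace F K (θ (g⁻¹ x) a) = Algebra.trace F K (θ x (g a)) := by
    have := h.pres g hg (g⁻¹ x) a
    rw [apply_inv_apply] at this
    exact this.symm
  rw [this, map_add, apply_inv_apply, map_smul]

/-- from one singular line to all singular vectors -/
theorem hasT_sing {a : V} (ha : θ a a = 0) (ha0 : a ≠ 0) (h1 : ∀ k : K, HasT F θ q M (k • a)) {y : V}
    (hy : θ y y = 0) : HasT F θ q M y := by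
  by_cases hy0 : y = 0
  · rw [hy0]
    have := h1 0
    rwa [zero_smul] at this
  obtain ⟨z, hz, haz, hyz⟩ := h.exists_common ha0 ha hy0
  obtain ⟨e, he0, he⟩ := exists_trace_zero_ne h.cardK
  -- move `a` to a multiple of `z`
  set k1 := (e / θ a z) ^ Q with hk1
  have h2 : θ a (k1 • z) = e := by rw [h.smul_right, hk1, h.QQ, div_mul_cancel₀ _ haz]
  have hk10 : k1 ≠ 0 := pow_ne_zero _ (div_ne_zero he0 haz)
  obtain ⟨g1, hg1, hl1, hg1a⟩ := h.exists_move ha (h.smul_sing hz k1) (by rw [h2]; exact he0)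
    (by rw [h2]; linear_combination he)
  have hzy : θ (k1 • z) y ≠ 0 := by
    rw [h.smul_left]; exact mul_ne_zero hk10 (h.swap_ne hyz)
  set k2 := (e / θ (k1 • z) y) ^ Q with hk2
  have h3 : θ (k1 • z) (k2 • y) = e := by rw [h.smul_right, hk2, h.QQ, div_mul_cancel₀ _ hzy]
  have hk20 : k2 ≠ 0 := pow_ne_zero _ (div_ne_zero he0 hzy)
  obtain ⟨g2, hg2, hl2, hg2z⟩ := h.exists_move (h.smul_sing hz k1) (h.smul_sing hy k2)
    (by rw [h3]; exact he0) (by rw [h3]; linear_combination he)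
  have h4 := h.hasT_conj (h1 k2⁻¹) (M.mul_mem hg2 hg1)
  have h5 : (g2 * g1) (k2⁻¹ • a) = y := by
    rw [LinearEquiv.mul_apply, hl1.lin, hg1a, hl2.lin, hg2z, smul_smul, inv_mul_cancel₀ hk20, one_smul]
  rwa [h5] at h4

theorem exists_skew_tr_ne : ∃ l : K, l ^ Q = -l ∧ Algebra.trace F K l ≠ 0 := by
  by_contra hcon
  push Not at hcon
  obtain ⟨e, he0, he⟩ := exists_trace_zero_ne h.cardK
  obtain ⟨η, hη⟩ := exists_not_fixed h.cardF
  apply he0
  apply eq_of_tr (F := F)
  intro k
  rw [mul_zero, map_zero]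
  -- `k = k0 + η k1`
  have hηK : (algebraMap F K η) ^ Q - algebraMap F K η ≠ 0 := by
    rw [h.algQ, ← map_sub]
    intro h0
    exact hη (sub_eq_zero.1 ((algebraMap F K).injective (by rw [h0, map_zero])))
  set E := algebraMap F K η with hE
  set k1 := (k ^ Q - k) / (E ^ Q - E) with hk1
  have hk1Q : k1 ^ Q = k1 := by
    rw [hk1, div_pow, sub_pow_q h.cardK, sub_pow_q h.cardK, h.QQ, h.QQ, ← neg_sub (k ^ Q),
      ← neg_sub (E ^ Q), neg_div_neg_eq]
  have hk0Q : (k - E * k1) ^ Q = k - E * k1 := by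
    rw [sub_pow_q h.cardK, mul_pow, hk1Q]
    have : (E ^ Q - E) * k1 = k ^ Q - k := by rw [hk1]; field_simp
    linear_combination -this
  have heQ : e ^ Q = -e := by linear_combination he
  have e1 : k * e = (k - E * k1) * e + η • (k1 * e) := by
    rw [Algebra.smul_def]; ring
  rw [e1, map_add, map_smul, hcon ((k - E * k1) * e) (by rw [mul_pow, hk0Q, heQ]; ring),
    hcon (k1 * e) (by rw [mul_pow, hk1Q, heQ]; ring), smul_zero, add_zero]

/-- all centres -/
theorem hasT_all {a : V} (ha : θ a a = 0) (ha0 : a ≠ 0) (h1 : ∀ k : K, HasT F θ q M (k • a)) {y : V}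
    (hy : Algebra.trace F K (θ y y) = 0) : HasT F θ q M y := by
  by_cases hys : θ y y = 0
  · exact h.hasT_sing ha ha0 h1 hys
  have hy0 : y ≠ 0 := by rintro rfl; exact hys (h.zero_left _)
  obtain ⟨l, hl, hltr⟩ := h.exists_skew_tr_ne
  obtain ⟨κ, hκ, hκtr⟩ : ∃ κ : K, κ + κ ^ Q = θ y y ∧ Algebra.trace F K κ ≠ 0 := by
    obtain ⟨κ, hκ⟩ := exists_trace_eq h.cardK (c := θ y y) (h.self_fix y)
    by_cases h0 : Algebra.trace F K κ = 0
    · refine ⟨κ + l, ?_, ?_⟩
      · rw [add_pow_q h.cardK, hl]; linear_combination hκ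
      · rw [map_add, h0, zero_add]; exact hltr
    · exact ⟨κ, hκ, h0⟩
  obtain ⟨b0, hb0, hyb0⟩ := h.exists_sing hy0
  have hby := h.swap_ne hyb0
  set b := (κ / θ b0 y) • b0 with hb
  have hbs : θ b b = 0 := h.smul_sing hb0 _
  have hbyκ : θ b y = κ := by rw [hb, h.smul_left, div_mul_cancel₀ _ hby]
  have hybκ : θ y b = κ ^ Q := by rw [h.herm, hbyκ]
  set c := y - b with hc
  have hcs : θ c c = 0 := by
    rw [hc, h.sub_left, h.sub_right, h.sub_right, hbs, hbyκ, hybκ]
    linear_combination -hκ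
  have hcb : Algebra.trace F K (θ c b) = Algebra.trace F K (θ y b) := by
    rw [hc, h.sub_left, hbs, sub_zero]
  -- `f (c, b)` is skew and not zero
  have hcb' : Algebra.trace F K (θ c b) = (Algebra.trace F K κ) ^ q := by
    rw [hcb, hybκ, h.trQ]
  have hsum : Algebra.trace F K κ + (Algebra.trace F K κ) ^ q = 0 := by
    rw [← h.trQ, ← map_add, hκ, hy]
  have hne : Algebra.trace F K (θ c b) ≠ 0 := by
    rw [hcb']; exact pow_ne_zero _ hκtr
  set ω := Algebra.trace F K (θ c b) with hω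
  have hωq : ω ^ q = -ω := by
    rw [hcb', pow_q_pow_q h.cardF]; linear_combination hsum
  -- move `c` to `y = c + b` by a transvection with centre `b`
  have hTb := h.hasT_sing ha ha0 h1 hbs
  have hTc := h.hasT_sing ha ha0 h1 hcs
  obtain ⟨g, hg, hgx⟩ := hTb ω⁻¹ (by rw [inv_pow, hωq, inv_neg])
  have h3 := h.hasT_conj hTc hg
  have h4 : g c = y := by
    rw [hgx]
    change c + (ω⁻¹ * ω) • b = y
    rw [inv_mul_cancel₀ hne, one_smul, hc, sub_add_cancel]
  rwa [h4] at h3

end Hyp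

/-- a proper subfield -/
theorem card_subfield_le {Q : ℕ} (hK : Fintype.card K = Q ^ 2) (E : Subfield K) (hE : E ≠ ⊤) :
    Nat.card E ≤ Q := by
  classical
  have : Fintype E := Fintype.ofFinite _
  have h1 := Module.card_eq_pow_finrank (K := E) (V := K)
  rw [Nat.card_eq_fintype_card]
  have h2 : 2 ≤ finrank E K := by
    have h3 : 0 < finrank E K := finrank_pos
    have h4 : finrank E K ≠ 1 := by
      intro h5
      apply hE
      rw [eq_top_iff]
      intro x _
      rw [finrank_eq_one_iff_of_nonzero' (1 : K) one_ne_zero] at h5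
      obtain ⟨c, hc⟩ := h5 x
      rw [← hc, Subfield.smul_def, smul_eq_mul, mul_one]
      exact c.2
    omega
  have h3 : (Fintype.card E) ^ 2 ≤ Q ^ 2 := by
    rw [← hK, h1]
    exact Nat.pow_le_pow_right Fintype.card_pos h2
  exact (Nat.pow_le_pow_iff_left two_ne_zero).1 h3

end Cfsg.Agent.H913.UExt
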