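import Cfsg.Agent.H913.UExt6
import Cfsg.Agent.H913.SU6Cubic
import Cfsg.Agent.H879.SpNormalizer
import Cfsg.Agent.H930.TTrans
import Cfsg.Agent.ClassicalGeometry.GUBasic

/-!
# The normaliser of an adjoint-closed field of degree `r = n / 2` in `SU_n(q)`: passage to matrices (helper913)
-/

set_option autoImplicit false
set_option linter.unusedSectionVars false

namespace Cfsg.Agent.H913.UExt

open Module Cfsg Cfsg.Geo
open scoped MatrixGroups Matrix
open Cfsg.Agent.LieClassical.HermBasic
open Cfsg.Agent.H879 (Has toEq toEq_apply has_map_iff)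
open Cfsg.Agent.H918 (SUg mem_SUg mem_GU mem_specialLinear)
open Cfsg.Agent.H924 (adjM)
open Cfsg.Agent.H913.SU6Cubic (stK)

section Conj

variable {F K : Type*} [Field F] [Fintype F] [Field K] [Fintype K] [Algebra F K]

/-- an involution of `K` inducing `c ↦ c ^ q` on `F`, `K` of odd degree `r`, is `k ↦ k ^ (q ^ r)`. -/
theorem st_eq_pow {q r : ℕ} (hF : Fintype.card F = q ^ 2) (hr : finrank F K = r) (hodd : Odd r)
    (st : K ≃+* K) (h1 : ∀ k, st (st k) = k) (h2 : ∀ c : F, st (algebraMap F K c) = algebraMap F K (c ^ q))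
    (k : K) : st k = k ^ (q ^ r) := by
  classical
  have hK : Fintype.card K = (q ^ r) ^ 2 := by
    rw [Module.card_eq_pow_finrank (K := F) (V := K), hF, hr, ← pow_mul, ← pow_mul, mul_comm]
  have hc : ∀ c : F, c ^ (q ^ r) = c ^ q := by
    intro c
    obtain ⟨t, rfl⟩ := hodd
    have h3 : ∀ t : ℕ, c ^ (q ^ (2 * t)) = c := by
      intro t
      induction t with
      | zero => simp
      | succ t ih =>
        rw [mul_add, mul_one, pow_add, pow_mul, ih, ← hF]
        exact FiniteField.pow_card c
    rw [pow_succ, pow_mul, h3]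
  let C : K ≃+* K := conj hK
  have hC : ∀ k, C k = k ^ (q ^ r) := fun k => rfl
  let τ : K ≃ₐ[F] K := AlgEquiv.ofRingEquiv (f := C.trans st) (by
    intro c
    rw [RingEquiv.trans_apply, hC, ← map_pow, hc, h2, pow_q_pow_q hF])
  have hτ : ∀ k, τ k = st (k ^ (q ^ r)) := fun k => rfl
  have hτ2 : τ ^ 2 = 1 := by
    ext k
    rw [pow_two, AlgEquiv.mul_apply, hτ, hτ, ← map_pow, h1, AlgEquiv.one_apply]
    exact pow_q_pow_q hK k
  have hcard : Nat.card (K ≃ₐ[F] K) = r := by
    rw [IsGalois.card_aut_eq_finrank, hr]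
  have hτr : τ ^ r = 1 := by rw [← hcard]; exact pow_card_eq_one'
  have hτ1 : τ = 1 := by
    obtain ⟨t, rfl⟩ := hodd
    rw [pow_succ, pow_mul, hτ2, one_pow, one_mul] at hτr
    exact hτr
  have h3 := hτ (k ^ (q ^ r))
  rw [hτ1, AlgEquiv.one_apply] at h3
  have h4 : (k ^ (q ^ r)) ^ (q ^ r) = k := pow_q_pow_q hK k
  rw [h4] at h3
  exact h3.symm

/-- the trace of a power -/
theorem trace_pow {q r : ℕ} (hF : Fintype.card F = q ^ 2) (hr : finrank F K = r) (hodd : Odd r)
    (k : K) : Algebra.trace F K (k ^ (q ^ r)) = (Algebra.trace F K k) ^ q := by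
  have hK : Fintype.card K = (q ^ r) ^ 2 := by
    rw [Module.card_eq_pow_finrank (K := F) (V := K), hF, hr, ← pow_mul, ← pow_mul, mul_comm]
  have hc : ∀ c : F, c ^ (q ^ r) = c ^ q := by
    intro c
    obtain ⟨t, rfl⟩ := hodd
    have h3 : ∀ t : ℕ, c ^ (q ^ (2 * t)) = c := by
      intro t
      induction t with
      | zero => simp
      | succ t ih =>
        rw [mul_add, mul_one, pow_add, pow_mul, ih, ← hF]
        exact FiniteField.pow_card c
    rw [pow_succ, pow_mul, h3]
  apply (algebraMap F K).injective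
  rw [← hc, RingHom.map_pow, FiniteField.algebraMap_trace_eq_sum_pow,
    FiniteField.algebraMap_trace_eq_sum_pow, sum_pow_q hK]
  refine Finset.sum_congr rfl fun i _ => ?_
  rw [← pow_mul, ← pow_mul, mul_comm]

end Conj

universe u

variable {F : Type u} [Field F] [Fintype F]

/-- **the normaliser of an adjoint-closed field of degree `r = n / 2` is maximal**, given the dichotomy. -/
theorem maximal_of_dichotomy {n q r : ℕ} (hF : Fintype.card F = q ^ 2) (hn : n = 2 * r) (hr3 : 3 ≤ r)
    (hodd : Odd r) {K : Subalgebra F (Matrix (Fin n) (Fin n) F)}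
    (hK : IsFieldSubalgebra r K) (hadj : IsAdjointClosedFor (hermForm n F q) K)
    (hdich : ∀ (K' : Type u) [Field K'] [Fintype K'] [Algebra F K'] [Module K' (Fin n → F)]
      [IsScalarTower F K' (Fin n → F)] (θ : (Fin n → F) → (Fin n → F) → K')
      (M : Subgroup ((Fin n → F) ≃ₗ[F] (Fin n → F))), Hyp θ q (q ^ r) M → finrank F K' = r →
      (∀ g ∈ M, ∀ k : K', ∃ k' : K', ∀ x, g (k • x) = k' • g x) ∨
        ∀ y, Algebra.trace F K' (θ y y) = 0 → HasT F θ q M y) :
    IsMaximalIn (SUg n F q) (subalgebraNormalizer K ⊓ SUg n F q) := by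
  classical
  have hn3 : 3 ≤ n := by omega
  have hne : NeZero n := ⟨by omega⟩
  have h32 : ¬ (n = 3 ∧ q = 2) := by omega
  refine ⟨lt_of_le_of_ne inf_le_right fun heq => ?_, fun M hHM hMS => ?_⟩
  · exact Cfsg.Agent.H918.SUg_not_le_subalgebraNormalizer hF hn3 h32 (by omega) hK
      (heq.symm.le.trans inf_le_left)
  let _ : Field K := (H912.isField_of_fieldSub hK).toField
  let _ : Fintype K := Fintype.ofFinite K
  have hH := H921.herm_hermForm (n := n) hF
  set f := hermForm n F q with hf
  set st := stK hF hK.comm hadj with hst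
  have hfinK : finrank F K = r := hK.finrank_eq
  have hcardK : Fintype.card K = (q ^ r) ^ 2 := by
    rw [Module.card_eq_pow_finrank (K := F) (V := K), hF, hfinK, ← pow_mul, ← pow_mul, mul_comm]
  have hst_st : ∀ k, st (st k) = k := fun k => st.left_inv k
  have hst_alg : ∀ c : F, st (algebraMap F K c) = algebraMap F K (c ^ q) := by
    intro c
    apply Subtype.ext
    change adjM (conj hF) f (algebraMap F (Matrix (Fin n) (Fin n) F) c) =
      algebraMap F (Matrix (Fin n) (Fin n) F) (c ^ q)
    rw [Algebra.algebraMap_eq_smul_one, H924.adjM_smul hH, H924.adjM_one hH,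
      Algebra.algebraMap_eq_smul_one]
    rfl
  have hstk : ∀ k, st k = k ^ (q ^ r) := st_eq_pow hF hfinK hodd st hst_st hst_alg
  have hadjf : ∀ (k : K) (u v : Fin n → F), f (k • u) v = f u (st k • v) := fun k u v =>
    H924.isAdj_adjM hH (k : Matrix (Fin n) (Fin n) F) u v
  -- the form over `K`
  have hex : ∀ u v : Fin n → F, ∃ t : K, ∀ k : K, f (k • u) v = Algebra.trace F K (k * t) := by
    intro u v
    let ε : K →ₗ[F] F :=
      { toFun := fun k => f (k • u) v
        map_add' := fun a b => by rw [add_smul]; exact herm_add_left _ _ _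
        map_smul' := fun c a => by rw [smul_assoc]; exact herm_smul_left _ _ _ }
    exact Cfsg.Agent.H879.ExtField.exists_rep (tr_ne (F := F) (K := K)) ε
  choose θ hθ using hex
  have hθ1 : ∀ u v, f u v = Algebra.trace F K (θ u v) := by
    intro u v
    have := hθ u v 1
    rwa [one_smul, one_mul] at this
  have hhyp : Hyp θ q (q ^ r) (M.map (toEq (ι := Fin n) (F := F)).toMonoidHom) :=
    { cardF := hF
      cardK := hcardK
      algQ := fun c => by rw [← hstk, hst_alg]
      add_left := fun x y z => eq_of_tr (F := F) fun k => by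
        rw [← hθ, smul_add, mul_add, map_add, ← hθ, ← hθ]; exact herm_add_left _ _ _
      smul_left := fun k x y => eq_of_tr (F := F) fun k' => by
        rw [← hθ, smul_smul, hθ, mul_assoc]
      herm := fun x y => eq_of_tr (F := F) fun k => by
        have e1 : k * θ y x ^ (q ^ r) = (st k * θ y x) ^ (q ^ r) := by
          rw [mul_pow, hstk k, ← pow_mul, ← pow_two, ← hcardK, FiniteField.pow_card]
        rw [e1, trace_pow hF hfinK hodd, ← hθ, ← hθ, hadjf]
        exact herm_swap hF _ _
      ndeg := fun x hx => by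
        by_contra hcon
        push Not at hcon
        apply hx
        apply herm_nondeg hF
        intro v
        exact (hθ1 x v).trans (by rw [hcon, map_zero])
      trQ := fun k => trace_pow hF hfinK hodd k
      pres := by
        rintro _ ⟨g, hg, rfl⟩ x y
        rw [← hθ1, ← hθ1]
        exact (mem_SUg.1 (hMS hg)).1 x y
      pw := by
        intro g hg
        obtain ⟨G, rfl⟩ := (toEq (ι := Fin n) (F := F)).surjective g
        refine ⟨G ^ (q + 1), hHM ⟨?_, ?_⟩, ?_⟩
        · apply Subgroup.pow_mem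
          apply Cfsg.Agent.H879.mem_subalgebraNormalizer_of_semilinear
          intro k hk
          exact ⟨k, hk, fun x => hg.lin ⟨k, hk⟩ x⟩
        · have hGU : ∀ u v : Fin n → F, hermForm n F q ((G : Matrix (Fin n) (Fin n) F) *ᵥ u)
              ((G : Matrix (Fin n) (Fin n) F) *ᵥ v) = hermForm n F q u v := by
            intro u v
            have e1 := hθ1 ((G : Matrix (Fin n) (Fin n) F) *ᵥ u) ((G : Matrix (Fin n) (Fin n) F) *ᵥ v)
            have e2 := hθ1 u v
            have e3 := hg.iso u v
            rw [toEq_apply, toEq_apply] at e3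
            rw [e3, ← e2] at e1
            exact e1
          refine ⟨Subgroup.pow_mem _ (mem_GU.2 hGU) _, ?_⟩
          have e4 : G ^ (q + 1) ∈ specialLinear (Fin n) F := by
            rw [mem_specialLinear, Units.val_pow_eq_pow_val, Matrix.det_pow]
            exact Cfsg.Agent.ClassicalGeometry.GUBasic.det_pow hF hGU
          exact e4
        · change toEq (G ^ (q + 1)) = _
          rw [map_pow]
      two := by
        have h1 := Module.finrank_mul_finrank F K (Fin n → F)
        rw [hfinK, Module.finrank_fin_fun] at h1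
        exact Nat.eq_of_mul_eq_mul_left (by omega : 0 < r) (h1.trans (hn.trans (mul_comm 2 r))) }
  rcases hdich K θ _ hhyp hfinK with h1 | h1
  · left
    refine le_antisymm (le_inf ?_ hMS) hHM
    intro g hg
    apply Cfsg.Agent.H879.mem_subalgebraNormalizer_of_semilinear
    intro k hk
    obtain ⟨k', hk'⟩ := h1 (toEq g) ⟨g, hg, rfl⟩ ⟨k, hk⟩
    exact ⟨k', k'.2, hk'⟩
  · right
    refine le_antisymm hMS ?_
    apply Cfsg.Agent.H930.SUg_le_of_TT hF h32
    intro v hv
    refine ⟨hv, fun c hc => ?_⟩
    obtain ⟨g, hg, hgx⟩ := (has_map_iff M _).1 (h1 v (by rw [← hθ1]; exact hv) c (by linear_combination hc))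
    refine ⟨g, hg, fun x => ?_⟩
    rw [hgx, ← hθ1]

/-- **the normaliser of an adjoint-closed cubic field is maximal in `SU_6(q)`, `q ≥ 3`** -/
theorem cubic_maximal {q : ℕ} (hF : Fintype.card F = q ^ 2) (hq : 3 ≤ q)
    {K : Subalgebra F (Matrix (Fin 6) (Fin 6) F)} (hK : IsFieldSubalgebra 3 K)
    (hadj : IsAdjointClosedFor (hermForm 6 F q) K) :
    IsMaximalIn (SUg 6 F q) (subalgebraNormalizer K ⊓ SUg 6 F q) := by
  refine maximal_of_dichotomy hF (r := 3) (by norm_num) le_rfl (by decide) hK hadj ?_
  intro K' _ _ _ _ _ θ M hH h3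
  exact Three.dichotomy { toHyp := hH, three := h3, q3 := hq }

end Cfsg.Agent.H913.UExt
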